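import Cfsg.Agent.H110.D.Roots

/-!
# The abstract group of type `D`: all commutator relations (helper110, for S2295)
-/

set_option autoImplicit false

namespace Cfsg.Agent.H110.D

open Equiv Matrix
open scoped commutatorElement

section group

variable {G : Type*} [Group G]

theorem grp1 {A B A' B' y : G} (f1 : A * y = A' * y * A) (f2 : B' * y = B * y * B') (f3 : A * B' = B' * A)
    (f4 : A' * B = B * A') : ⁅A, B⁆ = ⁅B', A'⁆ := by
  have h1 : B' * A' * y * A = A * B * y * B' := by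
    calc B' * A' * y * A = B' * (A' * y * A) := by group
      _ = (B' * A) * y := by rw [← f1]; group
      _ = A * (B' * y) := by rw [← f3]; group
      _ = _ := by rw [f2]; group
  have h2 : y * A = A'⁻¹ * A * y := by
    rw [mul_assoc, f1]; group
  have h3 : y * B'⁻¹ = B'⁻¹ * B * y := by
    rw [mul_inv_eq_iff_eq_mul]
    calc y = B'⁻¹ * (B' * y) := by group
      _ = _ := by rw [f2]; group
  have h4 : A * B'⁻¹ = B'⁻¹ * A := by
    rw [mul_inv_eq_iff_eq_mul, mul_assoc, f3]; group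
  have h5 : B * A'⁻¹ = A'⁻¹ * B := by
    rw [mul_inv_eq_iff_eq_mul, mul_assoc, ← f4]; group
  have h6 : B' * A' * B'⁻¹ * A'⁻¹ * B * A * y = A * B * y := by
    calc B' * A' * B'⁻¹ * A'⁻¹ * B * A * y = B' * A' * B'⁻¹ * (A'⁻¹ * B) * A * y := by group
      _ = B' * A' * B'⁻¹ * B * (A'⁻¹ * A * y) := by rw [← h5]; group
      _ = B' * A' * (B'⁻¹ * B * y) * A := by rw [← h2]; group
      _ = B' * A' * y * (B'⁻¹ * A) := by rw [← h3]; group
      _ = (B' * A' * y * A) * B'⁻¹ := by rw [← h4]; group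
      _ = _ := by rw [h1]; group
  have h7 : B' * A' * B'⁻¹ * A'⁻¹ * B * A = A * B := mul_right_cancel h6
  rw [commutatorElement_def, commutatorElement_def]
  calc A * B * A⁻¹ * B⁻¹ = (B' * A' * B'⁻¹ * A'⁻¹ * B * A) * A⁻¹ * B⁻¹ := by rw [h7]
    _ = _ := by group

theorem grp2 {g R S Z P : G} (f1 : R * S = Z * S * R) (f2 : g * R = P * R * g) (f3 : g * S = S * g)
    (f4 : P * Z = Z * P) : ⁅Z⁻¹, g⁆ = ⁅P, S⁆ := by
  have h1 : P * Z * S = g * Z * g⁻¹ * S * P := by
    apply mul_right_cancel (b := R * g)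
    calc P * Z * S * (R * g) = P * (Z * S * R) * g := by group
      _ = P * R * (S * g) := by rw [← f1]; group
      _ = (P * R * g) * S := by rw [← f3]; group
      _ = g * (R * S) := by rw [← f2]; group
      _ = g * Z * g⁻¹ * (g * S) * R := by rw [f1]; group
      _ = g * Z * g⁻¹ * S * (g * R) := by rw [f3]; group
      _ = _ := by rw [f2]; group
  rw [commutatorElement_def, commutatorElement_def, inv_inv]
  calc Z⁻¹ * g * Z * g⁻¹ = Z⁻¹ * (g * Z * g⁻¹ * S * P) * P⁻¹ * S⁻¹ := by group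
    _ = Z⁻¹ * (P * Z) * S * P⁻¹ * S⁻¹ := by rw [← h1]; group
    _ = _ := by rw [f4]; group

theorem comm_add {A A' B : G} (h : Commute A ⁅A', B⁆) : ⁅A * A', B⁆ = ⁅A', B⁆ * ⁅A, B⁆ := by
  have : ⁅A * A', B⁆ = A * ⁅A', B⁆ * A⁻¹ * ⁅A, B⁆ := by
    simp only [commutatorElement_def]; group
  rw [this, h.eq, mul_inv_cancel_right]

end group

variable {I F : Type*} [Fintype I] [DecidableEq I] [Field F] {J : Type*} [Group J] {P : Pre I F J}

namespace Pre.S1

variable (A : P.S1)
include A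

/-! ### Type II -/

theorem K1 {a b e : I ⊕ I} (hab : idx a ≠ idx b) (hae : idx a ≠ idx e) (hbe : idx b ≠ idx e) (u t v : F) :
    ⁅P.Y a b u, P.Y a (ng b) (t * v)⁆ = ⁅P.Y a (ng e) t, P.Y a e (-(u * v))⁆ := by
  refine grp1 (y := P.Y (ng b) e v) (A.comm1 hab hae hbe u v) ?_
    (A.comm2 hab (by simpa using hae) (by simpa using hbe) _ _) ?_
  · have h := A.comm1 (a := a) (b := ng e) (e := ng b) (by simpa using hae) (by simpa using hab)
      (by simpa using hbe.symm) t (-v)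
    rw [ng_ng, A.Y_symm (a := ng b) (b := e) (by simpa using hbe), neg_neg, mul_neg, neg_neg] at h
    exact h
  · exact A.comm2 hae (by simpa using hab) (by simpa using hbe.symm) _ _

theorem K_comm {a b : I ⊕ I} (hab : idx a ≠ idx b) (u t x : F) :
    Commute (P.Y a b x) ⁅P.Y a b u, P.Y a (ng b) t⁆ := by
  obtain ⟨d, h1, h2, -⟩ := exists_out A.hI (idx a) (idx b) (idx b)
  have h := A.K1 (e := .inl d) hab h1.symm h2.symm u t 1
  rw [mul_one] at h
  rw [h]
  have c1 : Commute (P.Y a b x) (P.Y a (ng (.inl d)) t) :=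
    A.comm2 hab (by simpa using h1.symm) (by simpa using h2.symm) _ _
  have c2 : Commute (P.Y a b x) (P.Y a (.inl d) (-(u * 1))) :=
    A.comm2 hab (by simpa using h1.symm) (by simpa using h2.symm) _ _
  rw [commutatorElement_def]
  exact ((c1.mul_right c2).mul_right c1.inv_right).mul_right c2.inv_right

theorem K_add {a b : I ⊕ I} (hab : idx a ≠ idx b) (u u' t : F) :
    ⁅P.Y a b (u + u'), P.Y a (ng b) t⁆ = ⁅P.Y a b u', P.Y a (ng b) t⁆ * ⁅P.Y a b u, P.Y a (ng b) t⁆ := by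
  rw [A.Y_add, comm_add (A.K_comm hab _ _ _)]

/-- the commutator depends on the product only -/
theorem K2 {a b : I ⊕ I} (hab : idx a ≠ idx b) (u t : F) :
    ⁅P.Y a b u, P.Y a (ng b) t⁆ = ⁅P.Y a b (u * t), P.Y a (ng b) 1⁆ := by
  obtain ⟨d, h1, h2, -⟩ := exists_out A.hI (idx a) (idx b) (idx b)
  have h := A.K1 (e := .inl d) hab h1.symm h2.symm u 1 t
  have h' := A.K1 (e := .inl d) hab h1.symm h2.symm (u * t) 1 1
  rw [one_mul] at h h'
  rw [mul_one] at h'
  rw [h, h']

theorem K3 {a b : I ⊕ I} (hab : idx a ≠ idx b) (u t : F) :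
    ⁅P.Y a b u, P.Y a (ng b) t⁆ = ⁅P.Y a b t, P.Y a (ng b) u⁆⁻¹ := by
  obtain ⟨d, h1, h2, -⟩ := exists_out A.hI (idx a) (idx b) (idx b)
  have e1 := A.K1 (e := .inl d) hab h1.symm h2.symm u t 1
  have e2 := A.K1 (a := a) (b := ng (.inl d)) (e := b) (by simpa using h1.symm) hab (by simpa using h2) t (-(u * 1)) 1
  rw [ng_ng, mul_one, mul_one, mul_one] at e2
  rw [mul_one, mul_one] at e1
  rw [e1, e2, commutatorElement_inv]
  have e3 := A.K2 hab (-t) (-u)
  have e4 := A.K2 hab t u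
  rw [neg_mul_neg, ← e4] at e3
  rw [← commutatorElement_inv, e3, commutatorElement_inv]

theorem K_sq {a b : I ⊕ I} (hab : idx a ≠ idx b) (u t : F) :
    ⁅P.Y a b u, P.Y a (ng b) t⁆ * ⁅P.Y a b u, P.Y a (ng b) t⁆ = 1 := by
  have h := A.K3 hab u t
  rw [A.K2 hab t u, mul_comm t u, ← A.K2 hab u t] at h
  exact mul_eq_one_iff_eq_inv.2 h

end Pre.S1

/-- All hypotheses. -/
structure Pre.S2 (P : Pre I F J) : Prop where
  s1 : P.S1
  sqr : (2 : F) = 0 → ∀ x : F, ∃ y, y * y = x
  II : (2 : F) = 0 → Commute (P.Y (.inl P.o) (.inl P.l) 1) (P.Y (.inl P.o) (.inr P.l) 1)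
  III : (2 : F) = 0 → Fintype.card I = 4 → ∃ d, d ≠ P.o ∧ d ≠ P.l ∧ d ≠ P.c ∧
    Commute (P.Y (.inl P.o) (.inr P.l) 1) (P.Y (.inl P.c) (.inl d) 1)

namespace Pre.S2

variable (A : P.S2)
include A

omit A in
theorem neg_eq (h : (2 : F) = 0) (x : F) : -x = x := by
  rw [neg_eq_iff_add_eq_zero, ← two_mul, h, zero_mul]

omit A in
theorem sgn_eq (h : (2 : F) = 0) {e : I → F} (he : Sgn e) (i : I) : e i = 1 := by
  rcases he i with h1 | h1
  · exact h1
  · rw [h1, neg_eq h]

theorem II_all (h2 : (2 : F) = 0) {a b : I ⊕ I} (hab : idx a ≠ idx b) :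
    Commute (P.Y a b 1) (P.Y a (ng b) 1) := by
  have hol : P.o ≠ P.l := A.s1.hol
  refine A.s1.flips (Q := fun a b => Commute (P.Y a b 1) (P.Y a (ng b) 1)) hab ?_
    (a₀ := .inl (idx a)) (b₀ := .inl (idx b)) rfl rfl ?_ rfl rfl
  · intro a' b' p q ha hb h
    have h1 := h.map (MulAut.conj (P.σ p q)).toMonoidHom
    have h3 : idx a' ≠ idx b' := by rw [ha, hb]; exact hab
    change Commute (MulAut.conj (P.σ p q) _) (MulAut.conj (P.σ p q) _) at h1
    rw [A.s1.fl_conj h3, A.s1.fl_conj (by simpa using h3)] at h1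
    rw [ng_fl, ng_fl]
    exact h1
  · obtain ⟨r, hr1, hr2, -⟩ := exists_out A.s1.hI (idx a) (idx b) (idx b)
    obtain ⟨π, h4, h5, -⟩ := exists_perm3 hol A.s1.hoc A.s1.hlc hab hr1.symm hr2.symm
    obtain ⟨m, e, hm, he⟩ := exists_smon (F := F) π
    have h1 := (A.II h2).map (MulAut.conj (P.φ m)).toMonoidHom
    change Commute (MulAut.conj (P.φ m) _) (MulAut.conj (P.φ m) _) at h1
    rw [A.s1.mon_conj (a := .inl P.o) (b := .inl P.l) hm he hol,
      A.s1.mon_conj (a := .inl P.o) (b := .inr P.l) hm he hol] at h1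
    simp only [Sum.map_inl, Sum.map_inr, h4, h5, idx_inl, idx_inr, sgn_eq h2 he, mul_one] at h1
    exact h1

/-- **Type II.** -/
theorem comm4 {a b : I ⊕ I} (hab : idx a ≠ idx b) (u t : F) : Commute (P.Y a b u) (P.Y a (ng b) t) := by
  rw [← commutatorElement_eq_one_iff_commute]
  by_cases h2 : (2 : F) = 0
  · obtain ⟨y, hy⟩ := A.sqr h2 (u * t)
    rw [A.s1.K2 hab, ← hy]
    by_cases hy0 : y = 0
    · rw [hy0, mul_zero, A.s1.Y_zero, commutatorElement_one_left]
    obtain ⟨d, d1, d2, -⟩ := exists_out A.s1.hI (idx a) (idx b) (idx b)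
    obtain ⟨v, hv, hv'⟩ : ∃ v : F, v ≠ 0 ∧ (a.elim (fun _ => v) fun _ => v⁻¹) = y := by
      rcases a with a | a
      · exact ⟨y, hy0, rfl⟩
      · exact ⟨y⁻¹, inv_ne_zero hy0, inv_inv y⟩
    have h1 := (A.II_all h2 hab).map (MulAut.conj (P.φ (Hd (idx a) d v))).toMonoidHom
    change Commute (MulAut.conj (P.φ (Hd (idx a) d v)) _) (MulAut.conj (P.φ (Hd (idx a) d v)) _) at h1
    rw [A.s1.tor1 hab d1 d2 hv, A.s1.tor1 (by simpa using hab) d1 (by simpa using d2) hv, hv', mul_one,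
      ← commutatorElement_eq_one_iff_commute, A.s1.K2 hab] at h1
    exact h1
  · have h := A.s1.K_add hab (u / 2) (u / 2) t
    have e : u / 2 + u / 2 = u := by field_simp; ring
    rw [A.s1.K_sq hab, e] at h
    exact h

end Pre.S2

namespace Pre.S1

variable (A : P.S1)
include A

/-! ### Type III -/

theorem L1 {a b c d : I ⊕ I} (hab : idx a ≠ idx b) (hac : idx a ≠ idx c) (had : idx a ≠ idx d)
    (hbc : idx b ≠ idx c) (hbd : idx b ≠ idx d) (hcd : idx c ≠ idx d) (u t' u' : F) :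
    ⁅P.Y c d (t' * u'), P.Y a b u⁆ = ⁅P.Y b c (-(u * t')), P.Y a d u'⁆ := by
  have h := grp2 (g := P.Y a b u) (R := P.Y c (ng a) t') (S := P.Y a d u') (Z := P.Y c d (-(t' * u')))
    (P := P.Y b c (-(u * t'))) ?_ ?_ (A.comm2 hab had hbd _ _) ?_
  · rwa [A.Y_inv, neg_neg] at h
  · have h := A.comm1 (a := c) (b := ng a) (e := d) (by simpa using hac.symm) hcd (by simpa using had) t' u'
    rwa [ng_ng] at h
  · rw [A.Y_symm hab.symm u, A.Y_symm (a := ng a) (b := c) (by simpa using hac) t']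
    have h := A.comm1 (a := b) (b := a) (e := c) hab.symm hbc hac (-u) (-t')
    rwa [neg_mul_neg] at h
  · rw [A.Y_symm hbc.symm]
    exact A.comm2 hbc.symm hcd hbd _ _

theorem L_comm {a b c d : I ⊕ I} (hab : idx a ≠ idx b) (hac : idx a ≠ idx c) (had : idx a ≠ idx d)
    (hbc : idx b ≠ idx c) (hbd : idx b ≠ idx d) (hcd : idx c ≠ idx d) (x u t : F) :
    Commute (P.Y a b x) ⁅P.Y a b u, P.Y c d t⁆ := by
  rw [← commutatorElement_inv]
  apply Commute.inv_right
  have h := A.L1 hab hac had hbc hbd hcd u 1 t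
  rw [one_mul] at h
  rw [h]
  have c1 : Commute (P.Y a b x) (P.Y b c (-(u * 1))) := by
    rw [A.Y_symm hab.symm]
    exact A.comm2 hab.symm hbc hac _ _
  have c2 : Commute (P.Y a b x) (P.Y a d t) := A.comm2 hab had hbd _ _
  rw [commutatorElement_def]
  exact ((c1.mul_right c2).mul_right c1.inv_right).mul_right c2.inv_right

theorem L_add {a b c d : I ⊕ I} (hab : idx a ≠ idx b) (hac : idx a ≠ idx c) (had : idx a ≠ idx d)
    (hbc : idx b ≠ idx c) (hbd : idx b ≠ idx d) (hcd : idx c ≠ idx d) (u u' t : F) :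
    ⁅P.Y a b (u + u'), P.Y c d t⁆ = ⁅P.Y a b u', P.Y c d t⁆ * ⁅P.Y a b u, P.Y c d t⁆ := by
  rw [A.Y_add, comm_add (A.L_comm hab hac had hbc hbd hcd _ _ _)]

theorem L_neg {a b c d : I ⊕ I} (hab : idx a ≠ idx b) (hac : idx a ≠ idx c) (had : idx a ≠ idx d)
    (hbc : idx b ≠ idx c) (hbd : idx b ≠ idx d) (hcd : idx c ≠ idx d) (u t : F) :
    ⁅P.Y a b (-u), P.Y c d t⁆ = ⁅P.Y a b u, P.Y c d t⁆⁻¹ := by
  have h := A.L_add hab hac had hbc hbd hcd u (-u) t
  rw [add_neg_cancel, A.Y_zero, commutatorElement_one_left] at h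
  exact eq_inv_of_mul_eq_one_left h.symm

theorem L2 {a b c d : I ⊕ I} (hab : idx a ≠ idx b) (hac : idx a ≠ idx c) (had : idx a ≠ idx d)
    (hbc : idx b ≠ idx c) (hbd : idx b ≠ idx d) (hcd : idx c ≠ idx d) (u t : F) :
    ⁅P.Y a b u, P.Y c d t⁆ = ⁅P.Y a b (u * t), P.Y c d 1⁆ := by
  have h1 := A.L1 (a := c) (b := a) (c := b) (d := d) hac.symm hbc.symm hcd hab had hbd (-u) 1 t
  have h2 := A.L1 (a := c) (b := a) (c := b) (d := d) hac.symm hbc.symm hcd hab had hbd (-u) t 1
  rw [one_mul, mul_one, neg_neg] at h1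
  rw [mul_one, neg_mul, neg_neg] at h2
  rw [← h1, h2]

theorem L3 {a b c d : I ⊕ I} (hab : idx a ≠ idx b) (hac : idx a ≠ idx c) (had : idx a ≠ idx d)
    (hbc : idx b ≠ idx c) (hbd : idx b ≠ idx d) (hcd : idx c ≠ idx d) (x : F) :
    ⁅P.Y a b x, P.Y c d 1⁆ = ⁅P.Y b c x, P.Y a d 1⁆ := by
  have h1 := A.L1 hab hac had hbc hbd hcd x 1 1
  rw [mul_one, mul_one] at h1
  rw [← commutatorElement_inv, h1, A.L_neg hbc hab.symm hbd hac.symm hcd had, inv_inv]

theorem L4 {a b c d : I ⊕ I} (hab : idx a ≠ idx b) (hac : idx a ≠ idx c) (had : idx a ≠ idx d)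
    (hbc : idx b ≠ idx c) (hbd : idx b ≠ idx d) (hcd : idx c ≠ idx d) (x : F) :
    ⁅P.Y a b x, P.Y d c 1⁆ = ⁅P.Y a b x, P.Y c d 1⁆⁻¹ := by
  rw [A.Y_symm hcd, A.L2 hab hac had hbc hbd hcd, mul_neg, mul_one, A.L_neg hab hac had hbc hbd hcd]

theorem L_sq {a b c d : I ⊕ I} (hab : idx a ≠ idx b) (hac : idx a ≠ idx c) (had : idx a ≠ idx d)
    (hbc : idx b ≠ idx c) (hbd : idx b ≠ idx d) (hcd : idx c ≠ idx d) (u t : F) :
    ⁅P.Y a b u, P.Y c d t⁆ * ⁅P.Y a b u, P.Y c d t⁆ = 1 := by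
  rw [A.L2 hab hac had hbc hbd hcd]
  set x := u * t
  have e1 : ⁅P.Y a b x, P.Y c d 1⁆ = ⁅P.Y c d x, P.Y a b 1⁆ := by
    rw [A.L3 hab hac had hbc hbd hcd, ← inv_inv ⁅P.Y b c x, P.Y a d 1⁆,
      ← A.L4 hbc hab.symm hbd hac.symm hcd had,
      A.L3 hbc hbd hab.symm hcd hac.symm had.symm, A.L4 hcd hac.symm hbc.symm had.symm hbd.symm hab, inv_inv]
  have e2 : ⁅P.Y a b x, P.Y c d 1⁆ = ⁅P.Y c d x, P.Y a b 1⁆⁻¹ := by
    rw [← commutatorElement_inv, A.L2 hcd hac.symm hbc.symm had.symm hbd.symm hab, one_mul]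
  rw [mul_eq_one_iff_eq_inv]
  calc ⁅P.Y a b x, P.Y c d 1⁆ = ⁅P.Y c d x, P.Y a b 1⁆⁻¹ := e2
    _ = _ := by rw [← e1]

theorem HH_base (i j : I) (u : F) : P.HH (.inr j) (.inl i) u = P.φ (Hd i j u) := by
  unfold HH WW Hd Wu
  simp only [ng_inl, ng_inr, Y_rl, Y_lr, map_mul]

/-- the torus element of the root `a + c` acts on the root `a + b` -/
theorem HH_left {a b c : I ⊕ I} (hab : idx a ≠ idx b) (hac : idx a ≠ idx c) (hbc : idx b ≠ idx c) {v : F}
    (hv : v ≠ 0) (t : F) : MulAut.conj (P.HH a c v) (P.Y a b t) = P.Y a b (v * t) := by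
  refine A.sign3 hab hac hbc
    (fun a b c => MulAut.conj (P.HH a c v) (P.Y a b t) = P.Y a b (v * t)) ?_
    (a₀ := .inr (idx a)) (b₀ := .inl (idx b)) (e₀ := .inl (idx c)) rfl rfl rfl ?_ rfl rfl rfl
  · intro a' b' c' p q ha hb hc h
    have h1 : idx a' ≠ idx b' := by rw [ha, hb]; exact hab
    have h2 : idx a' ≠ idx c' := by rw [ha, hc]; exact hac
    have h3 := congrArg (MulAut.conj (P.σ p q)) h
    rwa [← conj_conj, A.fl_HH h2, A.fl_conj h1, A.fl_conj h1] at h3
  · rw [A.HH_base, Hd_symm hac hv]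
    have h := A.tor1 (a := .inr (idx a)) (b := .inl (idx b)) hab (d := idx c) hac.symm hbc.symm (inv_ne_zero hv) t
    simpa using h

theorem Y_symm_all {a b : I ⊕ I} (hab : idx a ≠ idx b) : P.Y b a = fun t => P.Y a b (-t) :=
  funext fun t => A.Y_symm hab t

theorem HH_right {a b c : I ⊕ I} (hab : idx a ≠ idx b) (hac : idx a ≠ idx c) (hbc : idx b ≠ idx c) {v : F}
    (hv : v ≠ 0) (t : F) : MulAut.conj (P.HH a c v) (P.Y c b t) = P.Y c b (v * t) := by
  refine A.sign3 hab hac hbc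
    (fun a b c => MulAut.conj (P.HH a c v) (P.Y c b t) = P.Y c b (v * t)) ?_
    (a₀ := .inr (idx a)) (b₀ := .inl (idx b)) (e₀ := .inl (idx c)) rfl rfl rfl ?_ rfl rfl rfl
  · intro a' b' c' p q ha hb hc h
    have h1 : idx c' ≠ idx b' := by rw [hc, hb]; exact hbc.symm
    have h2 : idx a' ≠ idx c' := by rw [ha, hc]; exact hac
    have h3 := congrArg (MulAut.conj (P.σ p q)) h
    rwa [← conj_conj, A.fl_HH h2, A.fl_conj h1, A.fl_conj h1] at h3
  · rw [A.HH_base]
    have h := A.tor1 (a := .inl (idx c)) (b := .inl (idx b)) hbc.symm (d := idx a) hac hab hv t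
    simpa using h

end Pre.S1

/-- parity-preserving sign changes in four indices -/
theorem sign4 {I : Type*} [DecidableEq I] {i j k m : I} (hij : i ≠ j) (hik : i ≠ k) (him : i ≠ m) (hjk : j ≠ k)
    (hjm : j ≠ m) (hkm : k ≠ m) (Q : I ⊕ I → I ⊕ I → I ⊕ I → I ⊕ I → Prop)
    (hQ : ∀ (a b c d : I ⊕ I) (p q : I), idx a = i → idx b = j → idx c = k → idx d = m →
      Q a b c d → Q (fl p (fl q a)) (fl p (fl q b)) (fl p (fl q c)) (fl p (fl q d)))
    (h1 : Q (.inr i) (.inl j) (.inr k) (.inl m)) (h2 : Q (.inr i) (.inl j) (.inr k) (.inr m))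
    {a b c d : I ⊕ I} (ha : idx a = i) (hb : idx b = j) (hc : idx c = k) (hd : idx d = m) : Q a b c d := by
  have g : ∀ {x : I ⊕ I} {p : I}, idx x = p → x = .inl p ∨ x = .inr p := by
    rintro (x | x) p rfl
    · exact Or.inl rfl
    · exact Or.inr rfl
  have f1 : ∀ a b c : I ⊕ I, idx a = i → idx b = j → idx c = k → (∀ d, idx d = m → Q a b c d) →
      ∀ d, idx d = m → Q (ng a) b c d := by
    intro a b c ha hb hc h d hd
    have := hQ a b c (ng d) i m ha hb hc (by simpa using hd) (h (ng d) (by simpa using hd))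
    rwa [fl_of_ne (p := m) (a := a) (by rw [ha]; exact him), fl_of_ne (p := m) (a := b) (by rw [hb]; exact hjm),
      fl_of_ne (p := m) (a := c) (by rw [hc]; exact hkm), fl_self (p := m) (a := ng d) (by simpa using hd), ng_ng,
      fl_self ha, fl_of_ne (p := i) (a := b) (by rw [hb]; exact hij.symm),
      fl_of_ne (p := i) (a := c) (by rw [hc]; exact hik.symm),
      fl_of_ne (p := i) (a := d) (by rw [hd]; exact him.symm)] at this
  have f2 : ∀ a b c : I ⊕ I, idx a = i → idx b = j → idx c = k → (∀ d, idx d = m → Q a b c d) →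
      ∀ d, idx d = m → Q a (ng b) c d := by
    intro a b c ha hb hc h d hd
    have := hQ a b c (ng d) j m ha hb hc (by simpa using hd) (h (ng d) (by simpa using hd))
    rwa [fl_of_ne (p := m) (a := a) (by rw [ha]; exact him), fl_of_ne (p := m) (a := b) (by rw [hb]; exact hjm),
      fl_of_ne (p := m) (a := c) (by rw [hc]; exact hkm), fl_self (p := m) (a := ng d) (by simpa using hd), ng_ng,
      fl_self hb, fl_of_ne (p := j) (a := a) (by rw [ha]; exact hij),
      fl_of_ne (p := j) (a := c) (by rw [hc]; exact hjk.symm),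
      fl_of_ne (p := j) (a := d) (by rw [hd]; exact hjm.symm)] at this
  have f3 : ∀ a b c : I ⊕ I, idx a = i → idx b = j → idx c = k → (∀ d, idx d = m → Q a b c d) →
      ∀ d, idx d = m → Q a b (ng c) d := by
    intro a b c ha hb hc h d hd
    have := hQ a b c (ng d) k m ha hb hc (by simpa using hd) (h (ng d) (by simpa using hd))
    rwa [fl_of_ne (p := m) (a := a) (by rw [ha]; exact him), fl_of_ne (p := m) (a := b) (by rw [hb]; exact hjm),
      fl_of_ne (p := m) (a := c) (by rw [hc]; exact hkm), fl_self (p := m) (a := ng d) (by simpa using hd), ng_ng,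
      fl_self hc, fl_of_ne (p := k) (a := a) (by rw [ha]; exact hik),
      fl_of_ne (p := k) (a := b) (by rw [hb]; exact hjk),
      fl_of_ne (p := k) (a := d) (by rw [hd]; exact hkm.symm)] at this
  have h0 : ∀ d, idx d = m → Q (.inr i) (.inl j) (.inr k) d := by
    intro d hd
    rcases g hd with rfl | rfl
    · exact h1
    · exact h2
  have hi : ∀ d, idx d = m → Q (.inl i) (.inl j) (.inr k) d := f1 _ _ _ rfl rfl rfl h0
  have hij' : ∀ d, idx d = m → Q (.inr i) (.inr j) (.inr k) d := f2 _ _ _ rfl rfl rfl h0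
  have hij'' : ∀ d, idx d = m → Q (.inl i) (.inr j) (.inr k) d := f1 _ _ _ rfl rfl rfl hij'
  rcases g ha with rfl | rfl <;> rcases g hb with rfl | rfl <;> rcases g hc with rfl | rfl
  · exact f3 _ _ _ rfl rfl rfl hi _ hd
  · exact hi _ hd
  · exact f3 _ _ _ rfl rfl rfl hij'' _ hd
  · exact hij'' _ hd
  · exact f3 _ _ _ rfl rfl rfl h0 _ hd
  · exact h0 _ hd
  · exact f3 _ _ _ rfl rfl rfl hij' _ hd
  · exact hij' _ hd

namespace Pre.S2

variable (A : P.S2)
include A

theorem III_all (h2 : (2 : F) = 0) {a b c d : I ⊕ I} (hab : idx a ≠ idx b) (hac : idx a ≠ idx c)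
    (had : idx a ≠ idx d) (hbc : idx b ≠ idx c) (hbd : idx b ≠ idx d) (hcd : idx c ≠ idx d) :
    Commute (P.Y a b 1) (P.Y c d 1) := by
  have hQ : ∀ (a' b' c' d' : I ⊕ I) (p q : I), idx a' ≠ idx b' → idx c' ≠ idx d' →
      Commute (P.Y a' b' 1) (P.Y c' d' 1) →
      Commute (P.Y (fl p (fl q a')) (fl p (fl q b')) 1) (P.Y (fl p (fl q c')) (fl p (fl q d')) 1) := by
    intro a' b' c' d' p q ha hc h
    have h1 := h.map (MulAut.conj (P.σ p q)).toMonoidHom
    change Commute (MulAut.conj (P.σ p q) _) (MulAut.conj (P.σ p q) _) at h1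
    rwa [A.s1.fl_conj ha, A.s1.fl_conj hc] at h1
  have hbase : ∀ {i j k m : I}, i ≠ j → i ≠ k → i ≠ m → j ≠ k → j ≠ m → k ≠ m →
      Commute (P.Y (.inr i) (.inl j) 1) (P.Y (.inr k) (.inl m) 1) := by
    intro i j k m hij hik him hjk hjm hkm
    rw [Y_rl, Y_rl]
    exact (X_comm hij.symm hkm.symm him hjk _ _).map P.φ
  refine sign4 hab hac had hbc hbd hcd (fun a b c d => Commute (P.Y a b 1) (P.Y c d 1))
    (fun a' b' c' d' p q ha hb hc hd h => hQ a' b' c' d' p q (by rw [ha, hb]; exact hab)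
      (by rw [hc, hd]; exact hcd) h)
    (hbase hab hac had hbc hbd hcd) ?_ rfl rfl rfl rfl
  by_cases h4 : Fintype.card I = 4
  · obtain ⟨e, e1, e2, e3, h⟩ := A.III h2 h4
    obtain ⟨π, p1, p2, p3⟩ := exists_perm3 A.s1.hol A.s1.hoc A.s1.hlc hab hac hbc
    obtain ⟨m, f, hm, hf⟩ := exists_smon (F := F) π
    have p4 : π e = idx d := by
      -- the fourth index
      have hne1 : π e ≠ idx a := by rw [← p1]; exact π.injective.ne e1
      have hne2 : π e ≠ idx b := by rw [← p2]; exact π.injective.ne e2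
      have hne3 : π e ≠ idx c := by rw [← p3]; exact π.injective.ne e3
      by_contra hne4
      have : ({idx a, idx b, idx c, idx d, π e} : Finset I).card = 5 := by
        rw [Finset.card_insert_of_notMem, Finset.card_insert_of_notMem, Finset.card_insert_of_notMem,
          Finset.card_insert_of_notMem, Finset.card_singleton]
        · simpa using Ne.symm hne4
        · simp [hcd, hne3.symm]
        · simp [hbc, hbd, hne2.symm]
        · simp [hab, hac, had, hne1.symm]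
      have h5 := Finset.card_le_univ ({idx a, idx b, idx c, idx d, π e} : Finset I)
      omega
    have h1 := h.map (MulAut.conj (P.φ m)).toMonoidHom
    change Commute (MulAut.conj (P.φ m) _) (MulAut.conj (P.φ m) _) at h1
    rw [A.s1.mon_conj (a := .inl P.o) (b := .inr P.l) hm hf A.s1.hol,
      A.s1.mon_conj (a := .inl P.c) (b := .inl e) hm hf e3.symm] at h1
    simp only [Sum.map_inl, Sum.map_inr, p1, p2, p3, p4, idx_inl, idx_inr, sgn_eq h2 hf, mul_one] at h1
    have h3 := hQ _ _ _ _ (idx a) (idx b) (by simpa using hab) (by simpa using hcd) h1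
    rw [fl_of_ne (p := idx b) (a := .inl (idx a)) (by simpa using hab), fl_inl_self, fl_inr_self,
      fl_of_ne (p := idx a) (a := .inl (idx b)) (by simpa using hab.symm),
      fl_of_ne (p := idx b) (a := .inl (idx c)) (by simpa using hbc.symm),
      fl_of_ne (p := idx a) (a := .inl (idx c)) (by simpa using hac.symm),
      fl_of_ne (p := idx b) (a := .inl (idx d)) (by simpa using hbd.symm),
      fl_of_ne (p := idx a) (a := .inl (idx d)) (by simpa using had.symm)] at h3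
    have h4 := hQ _ _ _ _ (idx c) (idx d) (by simpa using hab) (by simpa using hcd) h3
    rwa [fl_of_ne (p := idx d) (a := .inl (idx c)) (by simpa using hcd), fl_inl_self, fl_inl_self,
      fl_of_ne (p := idx c) (a := .inr (idx d)) (by simpa using hcd.symm),
      fl_of_ne (p := idx d) (a := .inl (idx b)) (by simpa using hbd),
      fl_of_ne (p := idx c) (a := .inl (idx b)) (by simpa using hbc),
      fl_of_ne (p := idx d) (a := .inr (idx a)) (by simpa using had),
      fl_of_ne (p := idx c) (a := .inr (idx a)) (by simpa using hac)] at h4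
  · -- a fifth index
    obtain ⟨e, he⟩ : ∃ e : I, e ∉ ({idx a, idx b, idx c, idx d} : Finset I) := by
      by_contra hcon
      push Not at hcon
      have h5 : (Finset.univ : Finset I) ⊆ {idx a, idx b, idx c, idx d} := fun x _ => hcon x
      have h6 := Finset.card_le_card h5
      rw [Finset.card_univ] at h6
      have h7 : ({idx a, idx b, idx c, idx d} : Finset I).card ≤ 4 := Finset.card_le_four
      have := A.s1.hI
      omega
    simp only [Finset.mem_insert, Finset.mem_singleton, not_or] at he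
    obtain ⟨e1, e2, e3, e4⟩ := he
    have h3 := hQ _ _ _ _ (idx d) e (by simpa using hab) (by simpa using hcd) (hbase hab hac had hbc hbd hcd)
    rwa [fl_of_ne (p := e) (a := .inr (idx a)) (by simpa using Ne.symm e1),
      fl_of_ne (p := e) (a := .inl (idx b)) (by simpa using Ne.symm e2),
      fl_of_ne (p := e) (a := .inr (idx c)) (by simpa using Ne.symm e3),
      fl_of_ne (p := e) (a := .inl (idx d)) (by simpa using Ne.symm e4), fl_inl_self,
      fl_of_ne (p := idx d) (a := .inr (idx a)) (by simpa using had),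
      fl_of_ne (p := idx d) (a := .inl (idx b)) (by simpa using hbd),
      fl_of_ne (p := idx d) (a := .inr (idx c)) (by simpa using hcd)] at h3

/-- **Type III.** -/
theorem comm3 {a b c d : I ⊕ I} (hab : idx a ≠ idx b) (hac : idx a ≠ idx c)
    (had : idx a ≠ idx d) (hbc : idx b ≠ idx c) (hbd : idx b ≠ idx d) (hcd : idx c ≠ idx d) (u t : F) :
    Commute (P.Y a b u) (P.Y c d t) := by
  rw [← commutatorElement_eq_one_iff_commute]
  by_cases h2 : (2 : F) = 0
  · obtain ⟨y, hy⟩ := A.sqr h2 (u * t)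
    rw [A.s1.L2 hab hac had hbc hbd hcd, ← hy]
    by_cases hy0 : y = 0
    · rw [hy0, mul_zero, A.s1.Y_zero, commutatorElement_one_left]
    have h1 := (A.III_all h2 hab hac had hbc hbd hcd).map (MulAut.conj (P.HH a c y)).toMonoidHom
    change Commute (MulAut.conj (P.HH a c y) _) (MulAut.conj (P.HH a c y) _) at h1
    rw [A.s1.HH_left hab hac hbc hy0, A.s1.HH_right had hac hcd.symm hy0, mul_one,
      ← commutatorElement_eq_one_iff_commute, A.s1.L2 hab hac had hbc hbd hcd] at h1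
    exact h1
  · have h := A.s1.L_add hab hac had hbc hbd hcd (u / 2) (u / 2) t
    have e : u / 2 + u / 2 = u := by field_simp; ring
    rw [A.s1.L_sq hab hac had hbc hbd hcd, e] at h
    exact h

end Pre.S2

end Cfsg.Agent.H110.D
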