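import Cfsg.Agent.H110.D.Model3

/-!
# Naturality (helper110, for S2295)
-/

set_option autoImplicit false

namespace Cfsg.Agent.H110.D

open Equiv Matrix

variable {I F : Type*} [Fintype I] [DecidableEq I] [Field F] {J J' : Type*} [Group J] [Group J']

theorem map_conj (θ : J →* J') (x y : J) : θ (MulAut.conj x y) = MulAut.conj (θ x) (θ y) := by
  simp only [MulAut.conj_apply, map_mul, map_inv]

theorem map_ss (θ : J →* J') (φ : Matrix.SpecialLinearGroup I F →* J) (s : J) (o l p q : I) :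
    ss (θ.comp φ) (θ s) o l p q = θ (ss φ s o l p q) := by
  unfold ss
  split_ifs
  · rw [map_conj]; rfl
  · rw [map_one]

/-- the image of the data under a homomorphism -/
def Pre.map (P : Pre I F J) (θ : J →* J') : Pre I F J' where
  φ := θ.comp P.φ
  s := θ P.s
  o := P.o
  l := P.l
  c := P.c

variable {P : Pre I F J}

namespace Pre

theorem map_σ (θ : J →* J') (p q : I) : (P.map θ).σ p q = θ (P.σ p q) := map_ss θ _ _ _ _ _ _

theorem map_Y (θ : J →* J') (a b : I ⊕ I) (t : F) : (P.map θ).Y a b t = θ (P.Y a b t) := by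
  rcases a with j | j <;> rcases b with i | i
  · change MulAut.conj ((P.map θ).σ (th i j) j) (θ (P.φ (X i j t))) = θ (MulAut.conj (P.σ (th i j) j) (P.φ (X i j t)))
    rw [map_conj, map_σ]
  · rfl
  · rfl
  · change MulAut.conj ((P.map θ).σ (th i j) i) (θ (P.φ (X i j t))) = θ (MulAut.conj (P.σ (th i j) i) (P.φ (X i j t)))
    rw [map_conj, map_σ]

end Pre

/-- the matrix of a monomial matrix -/
theorem mon_phm' {m : Matrix.SpecialLinearGroup I F} {π : Perm I} {e : I → F} (hm : Mon m π e) :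
    MonG (phm I F m) (Equiv.sumCongr π π) (Sum.elim e fun i => (e i)⁻¹) := by
  intro a b
  rw [coe_phm]
  unfold dbl
  rcases a with a | a <;> rcases b with b | b
  · rw [fromBlocks_apply₁₁, hm.1]
    simp
  · rw [fromBlocks_apply₁₂]; simp
  · rw [fromBlocks_apply₂₁]; simp
  · rw [fromBlocks_apply₂₂, transpose_apply, hm.inv.1]
    simp only [Equiv.sumCongr_apply, Sum.map_inr, Sum.elim_inr, Sum.inr.injEq]
    by_cases h : a = π b
    · subst h
      have e1 : π⁻¹ (π b) = b := by simp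
      rw [e1, if_pos rfl, if_pos rfl]
    · rw [if_neg h, if_neg]
      rintro rfl
      exact h (by simp)

/-- the image of the torus element -/
theorem map_HH (A : P.S1) (θ : J →* GL (I ⊕ I) F) (hφ : θ.comp P.φ = phm I F) (hσ : ∀ p q, θ (P.σ p q) = sm F p q)
    {v : F} (hv : v ≠ 0) (i : I) :
    ((θ (P.HH (.inl P.o) (.inl P.l) v) : GL (I ⊕ I) F) : Matrix (I ⊕ I) (I ⊕ I) F) (.inl i) (.inl i) =
      if i = P.o ∨ i = P.l then v else 1 := by
  have hol : P.o ≠ P.l := A.hol
  obtain ⟨d, d1, d2, -⟩ := exists_out A.hI P.o P.l P.l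
  have h1 := A.fl_HH (a := .inr P.o) (b := .inl P.l) hol d P.o v
  rw [fl_self (p := P.o) (a := (.inr P.o : I ⊕ I)) rfl,
    fl_of_ne (p := P.o) (a := (.inl P.l : I ⊕ I)) hol.symm, fl_of_ne (p := d) (a := (.inl P.l : I ⊕ I)) d2.symm,
    fl_of_ne (p := d) (a := ng (.inr P.o : I ⊕ I)) d1.symm, ng_inr] at h1
  have hb : P.HH (.inr P.o) (.inl P.l) v = P.φ (Hd P.l P.o v) := by
    unfold Pre.HH Pre.WW Hd Wu
    simp only [ng_inl, ng_inr, Pre.Y_rl, Pre.Y_lr, map_mul]
  rw [← h1, hb, map_conj, hσ]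
  have h2 : θ (P.φ (Hd P.l P.o v)) = phm I F (Hd P.l P.o v) := DFunLike.congr_fun hφ _
  rw [h2]
  have hm := mon_phm' (mon_Hd (F := F) hol.symm hv)
  have h3 : MulAut.conj (sm F d P.o) (phm I F (Hd P.l P.o v)) * sm F d P.o =
      sm F d P.o * phm I F (Hd P.l P.o v) := by
    rw [MulAut.conj_apply, inv_mul_cancel_right]
  set M := MulAut.conj (sm F d P.o) (phm I F (Hd P.l P.o v)) with hM
  have h4 : (M : Matrix (I ⊕ I) (I ⊕ I) F) (.inl i) ((flp d * flp P.o) ((flp d * flp P.o) (.inl i))) =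
      (phm I F (Hd P.l P.o v) : Matrix (I ⊕ I) (I ⊕ I) F) ((flp d * flp P.o)⁻¹ (.inl i))
        ((flp d * flp P.o) (.inl i)) := by
    have h5 := congrArg (fun N : GL (I ⊕ I) F => (N : Matrix (I ⊕ I) (I ⊕ I) F) (.inl i) ((flp d * flp P.o) (.inl i))) h3
    simp only [Units.val_mul] at h5
    change ((M : Matrix (I ⊕ I) (I ⊕ I) F) * pmat F (flp d * flp P.o)) _ _ =
      (pmat F (flp d * flp P.o) * (phm I F (Hd P.l P.o v) : Matrix (I ⊕ I) (I ⊕ I) F)) _ _ at h5
    rwa [mul_pmat, pmat_mul] at h5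
  have h6 : (flp d * flp P.o) ((flp d * flp P.o) (.inl i)) = (.inl i : I ⊕ I) := by
    simp only [Perm.mul_apply, flp_apply]
    rw [fl_comm d P.o, fl_fl, fl_comm, fl_fl]
  have h7 : (flp d * flp P.o)⁻¹ = (flp d * flp P.o : Perm (I ⊕ I)) := by
    rw [_root_.mul_inv_rev, flp_inv, flp_inv, flp_comm]
  rw [h6, h7, hm] at h4
  rw [h4]
  have e1 : (Equiv.sumCongr (1 : Perm I) (1 : Perm I)) = (1 : Perm (I ⊕ I)) := by
    ext x; rcases x with x | x <;> rfl
  rw [e1, Perm.one_apply, if_pos rfl]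
  simp only [Perm.mul_apply, flp_apply]
  by_cases hio : i = P.o
  · subst hio
    rw [fl_self (p := P.o) (a := (.inl P.o : I ⊕ I)) rfl, fl_of_ne (p := d) (a := ng (.inl P.o : I ⊕ I)) d1.symm,
      ng_inl, Sum.elim_inr, if_neg hol, if_pos rfl, if_pos (Or.inl rfl), inv_inv]
  · rw [fl_of_ne (p := P.o) (a := (.inl i : I ⊕ I)) hio]
    by_cases hil : i = P.l
    · subst hil
      rw [fl_of_ne (p := d) (a := (.inl P.l : I ⊕ I)) d2.symm, Sum.elim_inl, if_pos rfl, if_pos (Or.inr rfl)]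
    · rw [if_neg (by rintro (h | h); exacts [hio h, hil h])]
      by_cases hid : i = d
      · subst hid
        rw [fl_self (p := i) (a := (.inl i : I ⊕ I)) rfl, ng_inl, Sum.elim_inr, if_neg hil, if_neg hio, inv_one]
      · rw [fl_of_ne (p := d) (a := (.inl i : I ⊕ I)) hid, Sum.elim_inl, if_neg hil, if_neg hio]

/-- torus elements are determined by their image -/
theorem tor_inj (A : P.S2) (θ : J →* GL (I ⊕ I) F) (hφ : θ.comp P.φ = phm I F) (hσ : ∀ p q, θ (P.σ p q) = sm F p q)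
    {h : J} (hh : h ∈ P.H) (h1 : ∀ i, ((θ h : GL (I ⊕ I) F) : Matrix (I ⊕ I) (I ⊕ I) F) (.inl i) (.inl i) = 1) :
    h = 1 := by
  have hol : P.o ≠ P.l := A.s1.hol
  obtain ⟨g, hg, v, hv, rfl⟩ := A.s1.exists_form hh
  obtain ⟨c, hc⟩ := mon_of_mem hg
  have hm := mon_phm' hc
  have e1 : (Equiv.sumCongr (1 : Perm I) (1 : Perm I)) = (1 : Perm (I ⊕ I)) := by
    ext x; rcases x with x | x <;> rfl
  have e2 : θ (P.φ g) = phm I F g := DFunLike.congr_fun hφ _
  have h2 : ∀ i, c i * (if i = P.o ∨ i = P.l then v else 1) = 1 := by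
    intro i
    have := h1 i
    rw [map_mul, Units.val_mul, mul_apply, Finset.sum_eq_single (.inl i), e2, hm, e1, Perm.one_apply, if_pos rfl,
      map_HH A.s1 θ hφ hσ hv, Sum.elim_inl] at this
    · exact this
    · intro k _ hk
      rw [e2, hm, e1, Perm.one_apply, if_neg (Ne.symm hk), zero_mul]
    · intro h; exact absurd (Finset.mem_univ _) h
  have h3 : ∀ i, i ≠ P.o → i ≠ P.l → c i = 1 := by
    intro i i1 i2
    have := h2 i
    rwa [if_neg (by rintro (h | h); exacts [i1 h, i2 h]), mul_one] at this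
  have h4 : c P.o = v⁻¹ := by
    have := h2 P.o
    rw [if_pos (Or.inl rfl)] at this
    exact eq_inv_of_mul_eq_one_left this
  have h5 : c P.l = v⁻¹ := by
    have := h2 P.l
    rw [if_pos (Or.inr rfl)] at this
    exact eq_inv_of_mul_eq_one_left this
  have hdiag : (g : Matrix I I F) = diagonal c := by
    ext a b
    rw [hc.1, diagonal_apply, Perm.one_apply]
    by_cases hab : a = b
    · rw [if_pos hab, if_pos hab, hab]
    · rw [if_neg hab, if_neg hab]
  have hdet := g.2
  rw [hdiag, det_diagonal, Finset.prod_eq_mul P.o P.l hol (fun i _ hi => h3 i hi.1 hi.2)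
    (fun h => absurd (Finset.mem_univ _) h) (fun h => absurd (Finset.mem_univ _) h), h4, h5] at hdet
  have hv2 : v = 1 ∨ v = -1 := by
    have : v * v = 1 := by
      field_simp at hdet
      rw [← sq, ← hdet]
    exact mul_self_eq_one_iff.1 this
  rcases hv2 with rfl | rfl
  · have hg1 : g = 1 := hc.ext_eq (Mon.one.congr rfl fun a => by
      by_cases ha : a = P.o
      · rw [ha, h4, inv_one]
      · by_cases ha' : a = P.l
        · rw [ha', h5, inv_one]
        · exact (h3 a ha ha').symm)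
    rw [hg1, map_one, one_mul, A.s1.HH_one (by simpa using hol)]
  · have hg1 : g = Hd P.l P.o (-1) := hc.ext_eq ((mon_Hd hol.symm (neg_ne_zero.2 one_ne_zero)).congr rfl fun a => by
      by_cases ha : a = P.l
      · rw [if_pos ha, ha, h5, inv_neg, inv_one]
      · rw [if_neg ha]
        by_cases ha' : a = P.o
        · rw [if_pos ha', ha', h4]
        · rw [if_neg ha']
          exact (h3 a ha' ha).symm)
    rw [hg1]
    exact A.HH_neg_one hol.symm

end Cfsg.Agent.H110.D
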