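import Cfsg.Agent.H110.D.Datum
import Cfsg.Agent.H110.D.Map

/-!
# Type `D`: injectivity of the map to matrices (helper110, for S2295)
-/

set_option autoImplicit false

namespace Cfsg.Agent.H110.D

open Equiv Matrix
open Cfsg.Agent.ChevalleyStructure.SteinbergBruhat

variable {m : ℕ} {F : Type*} [Field F]

theorem ymat_apply (a b : Sg m) (t : F) (x y : Sg m) : ymat a b t x y =
    (if x = y then 1 else 0) + ((if b = x ∧ ng a = y then t else 0) - if a = x ∧ ng b = y then t else 0) := by
  unfold ymat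
  rw [Matrix.add_apply, Matrix.sub_apply, one_apply, single_apply, single_apply]

theorem ymat_diag {a b : Sg m} (h : idx a ≠ idx b) (t : F) (x : Sg m) : ymat a b t x x = 1 := by
  rw [ymat_apply, if_pos rfl, if_neg, if_neg, sub_zero, add_zero]
  · rintro ⟨h1, h2⟩
    exact h (by rw [h1, ← h2, idx_ng])
  · rintro ⟨h1, h2⟩
    exact h (by rw [h1, ← h2, idx_ng])

theorem ymat_off {a b : Sg m} (t : F) {x y : Sg m} (hxy : x ≠ y) (hne : ymat a b t x y ≠ 0) :
    (x = b ∧ y = ng a) ∨ (x = a ∧ y = ng b) := by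
  rw [ymat_apply, if_neg hxy, zero_add] at hne
  by_contra hcon
  rw [not_or] at hcon
  apply hne
  rw [if_neg (fun h => hcon.1 ⟨h.1.symm, h.2.symm⟩), if_neg (fun h => hcon.2 ⟨h.1.symm, h.2.symm⟩), sub_zero]

theorem ymat_main {a b : Sg m} (h : idx a ≠ idx b) (t : F) : ymat a b t a (ng b) = -t := by
  rw [ymat_apply, if_neg, if_neg, if_pos ⟨rfl, rfl⟩]
  · ring
  · rintro ⟨h1, _⟩
    exact h (by rw [h1])
  · intro e
    exact h (by rw [e, idx_ng])

variable (m F) in
/-- lower triangular -/
def W0 : Submonoid (GL (Sg m) F) where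
  carrier := {g | ∀ a b, (g : Matrix (Sg m) (Sg m) F) a b ≠ 0 → wt b ≤ wt a}
  one_mem' := by
    intro a b h
    rw [Units.val_one, one_apply] at h
    split_ifs at h with h1
    · rw [h1]
    · exact absurd rfl h
  mul_mem' := by
    intro g h hg hh a b hab
    rw [Units.val_mul, mul_apply] at hab
    obtain ⟨c, _, hc⟩ := Finset.exists_ne_zero_of_sum_ne_zero hab
    exact (hh c b (right_ne_zero_of_mul hc)).trans (hg a c (left_ne_zero_of_mul hc))

variable (m F) in
/-- unitriangular of level `k` -/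
def Wk (k : ℤ) (hk : 0 < k) : Submonoid (GL (Sg m) F) where
  carrier := {g | (∀ a, (g : Matrix (Sg m) (Sg m) F) a a = 1) ∧
    ∀ a b, a ≠ b → (g : Matrix (Sg m) (Sg m) F) a b ≠ 0 → wt b + k ≤ wt a}
  one_mem' := by
    constructor
    · intro a; rw [Units.val_one, one_apply, if_pos rfl]
    · intro a b hab h
      rw [Units.val_one, one_apply, if_neg hab] at h
      exact absurd rfl h
  mul_mem' := by
    intro g h hg hh
    constructor
    · intro a
      rw [Units.val_mul, mul_apply, Finset.sum_eq_single a]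
      · rw [hg.1, hh.1, one_mul]
      · intro c _ hc
        by_contra hne
        have h1 := hg.2 a c (Ne.symm hc) (left_ne_zero_of_mul hne)
        have h2 := hh.2 c a hc (right_ne_zero_of_mul hne)
        omega
      · intro h; exact absurd (Finset.mem_univ _) h
    · intro a b hab hne
      rw [Units.val_mul, mul_apply] at hne
      obtain ⟨c, _, hc⟩ := Finset.exists_ne_zero_of_sum_ne_zero hne
      by_cases h1 : c = a
      · subst h1
        exact hh.2 c b hab (right_ne_zero_of_mul hc)
      by_cases h2 : c = b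
      · subst h2
        exact hg.2 a c hab (left_ne_zero_of_mul hc)
      · have h3 := hg.2 a c (Ne.symm h1) (left_ne_zero_of_mul hc)
        have h4 := hh.2 c b h2 (right_ne_zero_of_mul hc)
        omega

variable (F) in
/-- the submonoid of a positive root -/
def Wr' (r : Root m) (hr : 0 < r.ht) : Submonoid (GL (Sg m) F) where
  carrier := {g | g ∈ Wk m F r.ht hr ∧ ∀ a b, r.1 = s(a, b) → (g : Matrix (Sg m) (Sg m) F) a (ng b) = 0}
  one_mem' := by
    refine ⟨Submonoid.one_mem _, fun a b h => ?_⟩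
    rw [Units.val_one, one_apply, if_neg]
    rintro rfl
    have := r.2
    rw [h, isRoot_iff] at this
    exact this (idx_ng _)
  mul_mem' := by
    rintro g h ⟨hg, hg'⟩ ⟨hh, hh'⟩
    refine ⟨Submonoid.mul_mem _ hg hh, fun a b hab => ?_⟩
    have hht : r.ht = wt a + wt b := by rw [Root.ht, hab]; rfl
    have hne : a ≠ ng b := by
      rintro rfl
      have := r.2
      rw [hab, isRoot_iff] at this
      exact this (idx_ng _)
    rw [Units.val_mul, mul_apply]
    by_contra hne'
    obtain ⟨c, _, hc⟩ := Finset.exists_ne_zero_of_sum_ne_zero hne'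
    by_cases h1 : c = a
    · subst h1
      exact right_ne_zero_of_mul hc (hh' c b hab)
    by_cases h2 : c = ng b
    · subst h2
      exact left_ne_zero_of_mul hc (hg' a b hab)
    · have h3 := hg.2 a c (Ne.symm h1) (left_ne_zero_of_mul hc)
      have h4 := hh.2 c (ng b) h2 (right_ne_zero_of_mul hc)
      rw [wt_ng] at h4
      omega

variable (F) in
/-- the submonoid of a root -/
def Wr (r : Root m) : Submonoid (GL (Sg m) F) := if hr : 0 < r.ht then Wr' F r hr else ⊤

variable {J : Type*} [Group J] {P : Pre (Fin (m + 2)) F J}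

namespace Pre.S2

variable (A : P.S2)
include A

theorem hyp (hgen : Subgroup.closure (Set.range P.φ ∪ {P.s}) = ⊤)
    (θ : J →* GL (Sg m) F) (hθ : P.map θ = pmod F P.o P.l P.c) :
    Cfsg.Agent.H111.Inj.Hyp P.rd Root.ht θ (W0 m F) (Wk m F 1 one_pos) (Wr F) := by
  have hs1 : (pmod F P.o P.l P.c).S1 := pmod_s1 A.s1.hol A.s1.hoc A.s1.hlc A.s1.hI
  have hφ : θ.comp P.φ = phm (Fin (m + 2)) F := congrArg Pre.φ hθ
  have hσ : ∀ p q, θ (P.σ p q) = sm F p q := by
    intro p q
    rw [← map_σ, hθ, pmod_σ hs1]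
  have hY : ∀ {a b : Sg m}, idx a ≠ idx b → ∀ t,
      ((θ (P.Y a b t) : GL (Sg m) F) : Matrix (Sg m) (Sg m) F) = ymat a b t := by
    intro a b hab t
    rw [← map_Y, hθ, pmod_Y hs1 hab]
  have hpos1 : ∀ {a b : Sg m}, idx a ≠ idx b → ∀ t, ∀ k : ℤ, (hk : 0 < k) → k ≤ wt a + wt b →
      θ (P.Y a b t) ∈ Wk m F k hk := by
    intro a b hab t k hk hle
    refine ⟨fun x => ?_, fun x y hxy hne => ?_⟩
    · rw [hY hab, ymat_diag hab]
    · rw [hY hab] at hne
      rcases ymat_off t hxy hne with ⟨rfl, rfl⟩ | ⟨rfl, rfl⟩ <;> rw [wt_ng] <;> omega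
  have hdiag : ∀ {h : J}, h ∈ P.H → θ h ∈ W0 m F := by
    intro h hh
    obtain ⟨g, hg, v, hv, rfl⟩ := A.s1.exists_form hh
    -- diagonal matrices
    have hd : ∀ {g : Matrix.SpecialLinearGroup (Fin (m + 2)) F}, g ∈ HSL (Fin (m + 2)) F → θ (P.φ g) ∈ W0 m F := by
      intro g hg
      obtain ⟨c, hc⟩ := mon_of_mem hg
      have e2 : θ (P.φ g) = phm _ F g := DFunLike.congr_fun hφ _
      intro x y hne
      rw [e2, mon_phm' hc] at hne
      have e1 : (Equiv.sumCongr (1 : Perm (Fin (m + 2))) (1 : Perm (Fin (m + 2)))) = 1 := by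
        ext x; rcases x with x | x <;> rfl
      rw [e1, Perm.one_apply] at hne
      split_ifs at hne with h1
      · rw [h1]
      · exact absurd rfl hne
    rw [map_mul]
    refine (W0 m F).mul_mem (hd hg) ?_
    -- the other torus element
    have hol : P.o ≠ P.l := A.s1.hol
    obtain ⟨d, d1, d2, -⟩ := exists_out A.s1.hI P.o P.l P.l
    have h1 := A.s1.fl_HH (a := .inr P.o) (b := .inl P.l) hol d P.o v
    rw [fl_self (p := P.o) (a := (.inr P.o : Sg m)) rfl,
      fl_of_ne (p := P.o) (a := (.inl P.l : Sg m)) hol.symm, fl_of_ne (p := d) (a := (.inl P.l : Sg m)) d2.symm,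
      fl_of_ne (p := d) (a := ng (.inr P.o : Sg m)) d1.symm, ng_inr] at h1
    have hb : P.HH (.inr P.o) (.inl P.l) v = P.φ (Hd P.l P.o v) := by
      unfold Pre.HH Pre.WW Hd Wu
      simp only [ng_inl, ng_inr, Pre.Y_rl, Pre.Y_lr, map_mul]
    rw [← h1, hb, map_conj, hσ]
    have h2 : θ (P.φ (Hd P.l P.o v)) = phm _ F (Hd P.l P.o v) := DFunLike.congr_fun hφ _
    rw [h2]
    have hm := mon_phm' (mon_Hd (F := F) hol.symm hv)
    have e1 : (Equiv.sumCongr (1 : Perm (Fin (m + 2))) (1 : Perm (Fin (m + 2)))) = 1 := by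
      ext x; rcases x with x | x <;> rfl
    rw [e1] at hm
    have h3 : MulAut.conj (sm F d P.o) (phm _ F (Hd P.l P.o v)) * sm F d P.o =
        sm F d P.o * phm _ F (Hd P.l P.o v) := by
      rw [MulAut.conj_apply, inv_mul_cancel_right]
    set M := MulAut.conj (sm F d P.o) (phm _ F (Hd P.l P.o v)) with hM
    have h6 : ∀ z : Sg m, (flp d * flp P.o) ((flp d * flp P.o) z) = z := by
      intro z
      simp only [Perm.mul_apply, flp_apply]
      rw [fl_comm d P.o, fl_fl, fl_comm, fl_fl]
    have h7 : (flp d * flp P.o)⁻¹ = (flp d * flp P.o : Perm (Sg m)) := by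
      rw [_root_.mul_inv_rev, flp_inv, flp_inv, flp_comm]
    intro x y hne
    have h5 := congrArg (fun N : GL (Sg m) F => (N : Matrix (Sg m) (Sg m) F) x ((flp d * flp P.o) y)) h3
    simp only [Units.val_mul] at h5
    change ((M : Matrix (Sg m) (Sg m) F) * pmat F (flp d * flp P.o)) _ _ =
      (pmat F (flp d * flp P.o) * (phm _ F (Hd P.l P.o v) : Matrix (Sg m) (Sg m) F)) _ _ at h5
    rw [mul_pmat, pmat_mul, h6, h7, hm] at h5
    rw [h5] at hne
    split_ifs at hne with h8
    · rw [Perm.one_apply] at h8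
      have := (flp d * flp P.o : Perm (Sg m)).injective h8
      rw [this]
    · exact absurd rfl hne
  exact
  { refl_refl := Root.refl_refl
    refl_sim := refl_simR
    refl_pos := Root.refl_pos
    refl_neg := Root.refl_neg
    pos_iff := fun _ => Iff.rfl
    ht_sim := fun i => by
      change 0 < (simR i).ht
      rw [ht_simR]; exact one_pos
    ht_neg := Root.ht_neg
    ht_ne := Root.ht_ne
    conjH := fun h hh => Root.ind fun a b hab x hx => by
      rw [A.X_mkR] at hx ⊢
      exact A.conj_H hh hab x hx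
    conjn := fun i => Root.ind fun a b hab x hx => by
      rw [A.X_mkR] at hx
      obtain ⟨t, rfl⟩ := hx
      change _ ∈ P.rd.X ((mkR a b hab).refl i)
      rw [Root.refl, im_mkR, A.X_mkR]
      exact A.conj_n i hab t
    conjnH := fun i h hh => A.s1.WW_conj_mem (sab i) hh
    nn := fun i => A.s1.WW_mul_mem (sab i) one_ne_zero one_ne_zero
    nmem := A.n_mem
    Xneg := A.X_neg
    comm := A.comm
    gen := A.gen hgen
    W0pos := Root.ind fun a b hab hp x hx => by
      rw [A.X_mkR] at hx
      obtain ⟨t, rfl⟩ := hx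
      intro c d hne
      by_cases hcd : c = d
      · rw [hcd]
      · have := (hpos1 hab t _ hp le_rfl).2 c d hcd hne
        rw [ht_mkR] at this hp
        omega
    W0H := fun h hh => hdiag hh
    W0neg := Root.ind fun a b hab hp => by
      rw [ht_mkR] at hp
      refine ⟨P.Y a b 1, ?_, ?_⟩
      · rw [A.X_mkR]; exact ⟨1, rfl⟩
      · intro h
        have := h a (ng b) (by rw [hY hab, ymat_main hab]; exact neg_ne_zero.2 one_ne_zero)
        rw [wt_ng] at this
        omega
    Wpos := fun r s hr hrs hne x hx => by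
      obtain ⟨c, d, hcd, t, rfl, rfl⟩ := A.mem_X _ _ hx
      rw [Wr, dif_pos hr]
      refine ⟨hpos1 hcd t _ hr hrs, ?_⟩
      intro a b hab
      by_contra hne'
      have hr' := r.2
      rw [hab, isRoot_iff] at hr'
      have hane : a ≠ ng b := by
        rintro rfl
        exact hr' (idx_ng _)
      apply hne
      rw [hY hcd] at hne'
      rcases ymat_off t hane hne' with ⟨rfl, h2⟩ | ⟨rfl, h2⟩
      · have h3 : b = c := by rw [← ng_ng b, h2, ng_ng]
        subst h3
        apply Subtype.ext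
        rw [hab]
        exact Sym2.eq_swap
      · have h3 : b = d := by rw [← ng_ng b, h2, ng_ng]
        subst h3
        apply Subtype.ext
        rw [hab]; rfl
    Wr := fun r hr x hx hxW => by
      obtain ⟨c, d, hcd, t, rfl, rfl⟩ := A.mem_X _ _ hx
      rw [Wr, dif_pos hr] at hxW
      have := hxW.2 c d rfl
      rw [hY hcd, ymat_main hcd] at this
      rw [neg_eq_zero.1 this, A.s1.Y_zero]
    W1pos := Root.ind fun a b hab hp x hx => by
      rw [A.X_mkR] at hx
      obtain ⟨t, rfl⟩ := hx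
      exact hpos1 hab t _ one_pos hp
    W1H := fun h hh hW => tor_inj A θ hφ hσ hh fun i => hW.1 _ }

theorem injective (hgen : Subgroup.closure (Set.range P.φ ∪ {P.s}) = ⊤)
    (θ : J →* GL (Sg m) F) (hθ : P.map θ = pmod F P.o P.l P.c) : Function.Injective θ :=
  (A.hyp hgen θ hθ).injective

end Pre.S2

end Cfsg.Agent.H110.D
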