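import Cfsg.Agent.H110.D.Rel2
import Cfsg.Agent.H110.D.Gen
import Cfsg.Agent.H110.D.Surj
import Cfsg.Agent.H111.Pres

/-!
# Type `D`: `Ω⁺` as a quotient of `SL_n * ℤ` by six or seven relators (helper110, for S2295)
-/

set_option autoImplicit false

namespace Cfsg.Agent.H110.D

open Equiv Matrix QuadraticMap
open Cfsg.Agent.LieClassical.OrthCore Cfsg.Agent.LieClassical.OrthForms Cfsg.Agent.LieClassical.OrthFinite
open Cfsg.Agent.H111

section

variable (I F : Type*) [Fintype I] [DecidableEq I] [Field F]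

/-- the free product of `SL` and an infinite cyclic group -/
abbrev Pf : Type _ := Monoid.Coprod (Matrix.SpecialLinearGroup I F) (FreeGroup (Fin 1))

variable {I} (o l c : I)

/-- the universal data -/
def pre0 : Pre I F (Pf I F) where
  φ := Monoid.Coprod.inl
  s := Monoid.Coprod.inr (FreeGroup.of 0)
  o := o
  l := l
  c := c

/-- the map to matrices -/
def f0 : Pf I F →* GL (I ⊕ I) F := Monoid.Coprod.lift (phm I F) (FreeGroup.lift fun _ => sm F o l)

theorem pre0_map : (pre0 F o l c).map (f0 F o l) = pmod F o l c := by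
  unfold Pre.map pmod pre0 f0
  congr 1
  simp

theorem gen_pre0 : Subgroup.closure (Set.range (pre0 F o l c).φ ∪ {(pre0 F o l c).s}) = ⊤ := by
  rw [eq_top_iff]
  intro x _
  induction x using Monoid.Coprod.induction_on with
  | inl g => exact Subgroup.subset_closure (Or.inl ⟨g, rfl⟩)
  | inr g =>
    have h1 : (Monoid.Coprod.inr : FreeGroup (Fin 1) →* Pf I F).range ≤
        Subgroup.closure (Set.range (pre0 F o l c).φ ∪ {(pre0 F o l c).s}) := by
      rw [MonoidHom.range_eq_map, ← FreeGroup.closure_range_of, MonoidHom.map_closure, Subgroup.closure_le]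
      rintro _ ⟨_, ⟨i, rfl⟩, rfl⟩
      obtain rfl : i = 0 := Subsingleton.elim _ _
      exact Subgroup.subset_closure (Or.inr rfl)
    exact h1 ⟨g, rfl⟩
  | mul x y hx hy => exact Subgroup.mul_mem _ (hx trivial) (hy trivial)

end

variable {m : ℕ} {L F : Type*} [Fintype L] [DecidableEq L] [Field F]

theorem quo_range {o l c d : Fin (m + 2)} (hol : o ≠ l) (hoc : o ≠ c) (hlc : l ≠ c) (d1 : d ≠ o) (d2 : d ≠ l) (d3 : d ≠ c)
    (e : Fin 2 ⊕ L ≃ Fin (m + 2)) (h0 : e (.inl 0) = o) (h1 : e (.inl 1) = l) (hm : 2 ≤ m)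
    (hsq : (2 : F) = 0 → ∀ x : F, ∃ y, y * y = x)
    {b1 b2 : Matrix.SpecialLinearGroup (Fin 2) F} (hb : Subgroup.closure {b1, b2} = ⊤)
    {g1 g2 : Matrix.SpecialLinearGroup L F} (hg : Subgroup.closure {g1, g2} = ⊤) :
    Quo (Pf (Fin (m + 2)) F) ↥(f0 F o l).range (rels (pre0 F o l c) e b1 b2 g1 g2 d).length := by
  have hI : 4 ≤ Fintype.card (Fin (m + 2)) := by rw [Fintype.card_fin]; omega
  refine Quo.of_inj (f0 F o l).rangeRestrict (f0 F o l).rangeRestrict_surjective
    (rels (pre0 F o l c) e b1 b2 g1 g2 d) ?_ ?_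
  · intro r hr
    apply Subtype.ext
    change f0 F o l r = 1
    have h2 : f0 F o l r ∈ rels ((pre0 F o l c).map (f0 F o l)) e b1 b2 g1 g2 d := by
      rw [map_rels]
      exact List.mem_map_of_mem hr
    rw [pre0_map] at h2
    exact rels_eq_one (pmod_s2 hol hoc hlc hI hsq) e h0 h1 b1 b2 g1 g2 d d1 d2 d3 _ h2
  · intro φ θ hφ hθ hr
    have hS : ((pre0 F o l c).map φ).S2 := by
      refine s2_of_rels e h0 h1 hoc hlc hI hsq hb hg d1 d2 d3 ?_
      intro r hr'
      rw [map_rels] at hr'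
      obtain ⟨x, hx, rfl⟩ := List.mem_map.1 hr'
      exact hr x hx
    have hgen : Subgroup.closure (Set.range ((pre0 F o l c).map φ).φ ∪ {((pre0 F o l c).map φ).s}) = ⊤ := by
      have h3 := congrArg (Subgroup.map φ) (gen_pre0 F o l c)
      rw [MonoidHom.map_closure, Set.image_union, Set.image_singleton, ← Set.range_comp,
        ← MonoidHom.range_eq_map, MonoidHom.range_eq_top.2 hφ] at h3
      exact h3
    have h4 : ((pre0 F o l c).map φ).map ((f0 F o l).range.subtype.comp θ) = pmod F o l c := by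
      rw [← pre0_map]
      have h5 : ∀ p, ((f0 F o l).range.subtype.comp θ) (φ p) = f0 F o l p := by
        intro p
        rw [MonoidHom.comp_apply, hθ]
        rfl
      unfold Pre.map
      congr 1
      · ext1 g
        exact h5 _
      · exact h5 _
    have h6 := hS.injective hgen ((f0 F o l).range.subtype.comp θ) h4
    rw [MonoidHom.coe_comp] at h6
    exact Function.Injective.of_comp h6

/-- the image of the universal group is `Ω⁺` -/
theorem map_range {o l c : Fin (m + 2)} (hol : o ≠ l) (hoc : o ≠ c) (hlc : l ≠ c) (hm : 2 ≤ m) :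
    (f0 F o l).range.map (glEquiv (Fin (m + 2) ⊕ Fin (m + 2)) F).toMonoidHom = E (plusForm (m + 2) F) := by
  have hI : 4 ≤ Fintype.card (Fin (m + 2)) := by rw [Fintype.card_fin]; omega
  have A := pmod_s1 (F := F) hol hoc hlc hI
  have hY : ∀ a b : Sg m, ∀ (h : idx a ≠ idx b) (t : F),
      glEquiv (Fin (m + 2) ⊕ Fin (m + 2)) F ((pmod F o l c).Y a b t) = ysg a b h t := fun a b h t =>
    glEquiv_ymat h t (pmod_Y A h t)
  apply le_antisymm
  · rw [Subgroup.map_le_iff_le_comap, MonoidHom.range_eq_map, ← gen_pre0 F o l c, MonoidHom.map_closure,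
      Subgroup.closure_le]
    have hYE : ∀ a b : Sg m, idx a ≠ idx b → ∀ t : F,
        (pmod F o l c).Y a b t ∈ (E (plusForm (m + 2) F)).comap (glEquiv (Fin (m + 2) ⊕ Fin (m + 2)) F).toMonoidHom := by
      intro a b h t
      change glEquiv (Fin (m + 2) ⊕ Fin (m + 2)) F ((pmod F o l c).Y a b t) ∈ E (plusForm (m + 2) F)
      rw [hY a b h t]
      exact siegel_mem_E _ _
    rintro _ ⟨x, (⟨g, rfl⟩ | hx), rfl⟩
    · have e1 : f0 F o l ((pre0 F o l c).φ g) = phm _ F g := by
        change Monoid.Coprod.lift _ _ (Monoid.Coprod.inl g) = _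
        rw [Monoid.Coprod.lift_apply_inl]
      rw [e1]
      have h1 : g ∈ Subgroup.closure (Cfsg.Agent.LieClassical.SLGen.transvections (Fin (m + 2)) F) := by
        rw [Cfsg.Agent.LieClassical.SLGen.closure_transvections]; trivial
      have h2 : Subgroup.closure (Cfsg.Agent.LieClassical.SLGen.transvections (Fin (m + 2)) F) ≤
          ((E (plusForm (m + 2) F)).comap (glEquiv (Fin (m + 2) ⊕ Fin (m + 2)) F).toMonoidHom).comap
            (phm (Fin (m + 2)) F) := by
        rw [Subgroup.closure_le]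
        rintro _ ⟨i, j, h, c', rfl⟩
        have := hYE (.inr j) (.inl i) (by simpa using h.symm) c'
        rw [Pre.Y_rl, X_of h] at this
        exact this
      exact h2 h1
    · rw [Set.mem_singleton_iff] at hx
      rw [hx]
      have e1 : f0 F o l ((pre0 F o l c).s) = (pmod F o l c).s := by
        rw [← pre0_map]; rfl
      rw [e1]
      have h1 : (pmod F o l c).σ o l = (pmod F o l c).s := Sys1.ss_ol A
      rw [SetLike.mem_coe, ← h1, A.σ_eq hol]
      have hW : ∀ a b : Sg m, idx a ≠ idx b → (pmod F o l c).WW a b 1 ∈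
          (E (plusForm (m + 2) F)).comap (glEquiv (Fin (m + 2) ⊕ Fin (m + 2)) F).toMonoidHom := fun a b hab =>
        Subgroup.mul_mem _ (Subgroup.mul_mem _ (hYE a b hab _) (hYE _ _ (by simpa using hab) _)) (hYE a b hab _)
      exact Subgroup.mul_mem _ (hW _ _ hol.symm) (Subgroup.inv_mem _ (hW _ _ hol.symm))
  · apply step2
    intro a b h t
    rw [← hY a b h t]
    refine ⟨_, ?_, rfl⟩
    rw [← pre0_map, Pre.map_Y]
    exact ⟨_, rfl⟩

/-- `Ω⁺` as a quotient of `SL_n * ℤ` -/
theorem quo_omega [Finite F] (hm : 2 ≤ m) :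
    Quo (Pf (Fin (m + 2)) F) ↥(Cfsg.Omega F (Cfsg.quadFormPlus (m + 2) F)) (if m = 2 then 7 else 6) := by
  have := Fintype.ofFinite F
  obtain ⟨b1, b2, hb⟩ := slGen (K := F) 2 le_rfl
  obtain ⟨g1, g2, hg⟩ := slGen (K := F) m hm
  have hsq : (2 : F) = 0 → ∀ x : F, ∃ y, y * y = x := by
    intro h2 x
    have hc : ringChar F = 2 := by
      have h3 : (ringChar F) ∣ 2 := (ringChar.spec F 2).1 (by exact_mod_cast h2)
      have h4 : ringChar F ≠ 1 := CharP.ringChar_ne_one
      rcases (Nat.dvd_prime Nat.prime_two).1 h3 with h | h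
      · exact absurd h h4
      · exact h
    exact ⟨_, FiniteField.isSquare_of_char_two hc x |>.choose_spec.symm⟩
  set e : Fin 2 ⊕ Fin m ≃ Fin (m + 2) := finSumFinEquiv.trans (finCongr (add_comm 2 m)) with he
  have hne : ∀ {x y : Fin 2 ⊕ Fin m}, x ≠ y → e x ≠ e y := fun h => e.injective.ne h
  have q := quo_range (F := F) (o := e (.inl 0)) (l := e (.inl 1)) (c := e (.inr ⟨0, by omega⟩))
    (d := e (.inr ⟨1, by omega⟩)) (hne (by simp)) (hne (by simp)) (hne (by simp)) (hne (by simp)) (hne (by simp))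
    (hne (by simp)) e rfl rfl hm hsq hb hg
  have hgood : Cfsg.Agent.LieClassical.OrthTrans.Good (plusForm (m + 2) F) :=
    good_of_finite (nondeg_plusForm _ _) (by
      rw [Module.finrank_fintype_fun_eq_card, Fintype.card_sum, Fintype.card_fin]; omega)
  have e1 : ↥(f0 F (e (.inl 0)) (e (.inl 1))).range ≃* ↥(E (plusForm (m + 2) F)) :=
    ((glEquiv (Fin (m + 2) ⊕ Fin (m + 2)) F).subgroupMap _).trans
      (MulEquiv.subgroupCongr (map_range (c := e (.inr ⟨0, by omega⟩)) (hne (by simp)) (hne (by simp))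
        (hne (by simp)) hm))
  have e2 : ↥(Cfsg.Omega F ⇑(plusForm (m + 2) F)) ≃* ↥(E (plusForm (m + 2) F)) :=
    (omegaEquiv _).trans (MulEquiv.subgroupCongr hgood.commutator_eq_E)
  have e3 : ↥(f0 F (e (.inl 0)) (e (.inl 1))).range ≃* ↥(Cfsg.Omega F (Cfsg.quadFormPlus (m + 2) F)) := by
    have := e1.trans e2.symm
    rwa [coe_plusForm] at this
  have q2 := q.trans (Quo.of_mulEquiv e3)
  refine q2.mono ?_
  rw [add_zero]
  split_ifs with h
  · exact length_rels _ _ _ _ _ _ _
  · refine length_rels' _ _ _ _ _ _ _ ?_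
    rw [Fintype.card_fin]; omega

end Cfsg.Agent.H110.D
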