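import Cfsg.Agent.H110.D.Tor2

/-!
# The matrix model of type `D` (helper110, for S2295)
-/

set_option autoImplicit false

namespace Cfsg.Agent.H110.D

open Equiv Matrix

section mono

variable {K F : Type*} [Fintype K] [DecidableEq K] [Field F]

/-- monomial matrices -/
def MonG (M : GL K F) (π : Perm K) (c : K → F) : Prop :=
  ∀ a b, (M : Matrix K K F) a b = if a = π b then c b else 0

namespace MonG

variable {M M' : GL K F} {π π' : Perm K} {c c' : K → F}

theorem one : MonG (1 : GL K F) 1 fun _ => 1 := fun a b => by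
  rw [Units.val_one, one_apply]; rfl

theorem mul (h : MonG M π c) (h' : MonG M' π' c') : MonG (M * M') (π * π') fun b => c (π' b) * c' b := by
  intro a b
  rw [Units.val_mul, mul_apply, Finset.sum_eq_single (π' b)]
  · rw [h, h', if_pos rfl, Perm.mul_apply]
    split_ifs <;> simp
  · intro k _ hk
    rw [h', if_neg hk, mul_zero]
  · intro h; exact absurd (Finset.mem_univ _) h

theorem ext_eq (h : MonG M π c) (h' : MonG M' π c) : M = M' := by
  apply Units.ext
  ext a b
  rw [h, h']

theorem congr (h : MonG M π c) (hπ : π = π') (hc : ∀ a, c a = c' a) : MonG M π' c' := by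
  subst hπ
  have : c = c' := funext hc
  subst this
  exact h

end MonG

/-- permutation matrices -/
def pmat (F : Type*) [Field F] (π : Perm K) : Matrix K K F := of fun a b => if a = π b then 1 else 0

theorem pmat_mul (π : Perm K) (N : Matrix K K F) (a b : K) : (pmat F π * N) a b = N (π⁻¹ a) b := by
  rw [mul_apply, Finset.sum_eq_single (π⁻¹ a)]
  · simp [pmat]
  · intro k _ hk
    have : a ≠ π k := by
      rintro rfl
      exact hk (by simp)
    simp [pmat, this]
  · intro h; exact absurd (Finset.mem_univ _) h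

theorem mul_pmat (π : Perm K) (N : Matrix K K F) (a b : K) : (N * pmat F π) a b = N a (π b) := by
  rw [mul_apply, Finset.sum_eq_single (π b)]
  · simp [pmat]
  · intro k _ hk
    simp [pmat, hk]
  · intro h; exact absurd (Finset.mem_univ _) h

theorem pmat_one : pmat F (1 : Perm K) = 1 := by
  ext a b
  rw [one_apply]
  rfl

theorem pmat_comp (π σ : Perm K) : pmat F (π * σ) = pmat F π * pmat F σ := by
  ext a b
  rw [pmat_mul]
  simp only [pmat, of_apply, Perm.mul_apply]
  congr 1
  exact propext ⟨fun h => by rw [h]; simp, fun h => by rw [← h]; simp⟩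

/-- permutation matrices -/
def pm (F : Type*) [Field F] : Perm K →* GL K F where
  toFun π := ⟨pmat F π, pmat F π⁻¹, by rw [← pmat_comp, mul_inv_cancel, pmat_one],
    by rw [← pmat_comp, inv_mul_cancel, pmat_one]⟩
  map_one' := Units.ext pmat_one
  map_mul' π σ := Units.ext (pmat_comp π σ)

theorem coe_pm (π : Perm K) : (pm F π : Matrix K K F) = pmat F π := rfl

theorem mon_pm (π : Perm K) : MonG (pm F π) π fun _ => 1 := fun _ _ => rfl

/-- monomial matrices commute with permutation matrices -/
theorem MonG.pm_comm {M : GL K F} {π : Perm K} {c : K → F} (h : MonG M π c) {f : Perm K} (hf : ∀ b, c (f b) = c b) :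
    M * pm F f = pm F (π * f * π⁻¹) * M := by
  refine (h.mul (mon_pm f)).ext_eq (((mon_pm (π * f * π⁻¹)).mul h).congr (by group) fun a => ?_)
  rw [hf, one_mul, mul_one]

end mono

variable {I F : Type*} [Fintype I] [DecidableEq I] [Field F]

/-- sign change -/
def flp (p : I) : Perm (I ⊕ I) := ⟨fl p, fl p, fl_fl p, fl_fl p⟩

@[simp] theorem flp_apply (p : I) (a : I ⊕ I) : flp p a = fl p a := rfl

theorem flp_mul_self (p : I) : flp p * flp p = 1 := by
  ext1 a
  rw [Perm.mul_apply, flp_apply, flp_apply, fl_fl, Perm.one_apply]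

theorem flp_comm (p q : I) : flp p * flp q = flp q * flp p := by
  ext1 a
  rw [Perm.mul_apply, Perm.mul_apply]
  simp only [flp_apply]
  rw [fl_comm]

theorem flp_inv (p : I) : (flp p)⁻¹ = flp p := inv_eq_of_mul_eq_one_right (flp_mul_self p)

theorem flp_conj (π : Perm I) (p : I) : Equiv.sumCongr π π * flp p * (Equiv.sumCongr π π)⁻¹ = flp (π p) := by
  rw [mul_inv_eq_iff_eq_mul]
  ext1 a
  rw [Perm.mul_apply, Perm.mul_apply]
  simp only [flp_apply]
  rcases a with a | a
  · by_cases h : a = p
    · subst h
      rw [fl_self (p := a) (a := (.inl a : I ⊕ I)) rfl]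
      rw [fl_self (p := π a) (a := Equiv.sumCongr π π (.inl a)) rfl]
      rfl
    · rw [fl_of_ne (p := p) (a := (.inl a : I ⊕ I)) (by simpa using h)]
      rw [fl_of_ne (p := π p) (a := Equiv.sumCongr π π (.inl a))]
      exact fun e => h (π.injective e)
  · by_cases h : a = p
    · subst h
      rw [fl_self (p := a) (a := (.inr a : I ⊕ I)) rfl]
      rw [fl_self (p := π a) (a := Equiv.sumCongr π π (.inr a)) rfl]
      rfl
    · rw [fl_of_ne (p := p) (a := (.inr a : I ⊕ I)) (by simpa using h)]
      rw [fl_of_ne (p := π p) (a := Equiv.sumCongr π π (.inr a))]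
      exact fun e => h (π.injective e)

/-- the double of a matrix -/
def dbl (g : Matrix.SpecialLinearGroup I F) : Matrix (I ⊕ I) (I ⊕ I) F :=
  fromBlocks (g : Matrix I I F) 0 0 ((g⁻¹ : Matrix.SpecialLinearGroup I F) : Matrix I I F)ᵀ

theorem dbl_mul (g h : Matrix.SpecialLinearGroup I F) : dbl (g * h) = dbl g * dbl h := by
  unfold dbl
  rw [fromBlocks_multiply, _root_.mul_inv_rev, Matrix.SpecialLinearGroup.coe_mul, Matrix.SpecialLinearGroup.coe_mul,
    Matrix.transpose_mul]
  simp

theorem dbl_one : dbl (1 : Matrix.SpecialLinearGroup I F) = 1 := by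
  unfold dbl
  rw [inv_one, Matrix.SpecialLinearGroup.coe_one, Matrix.transpose_one, fromBlocks_one]

/-- `SL` in the model -/
def phm (I F : Type*) [Fintype I] [DecidableEq I] [Field F] : Matrix.SpecialLinearGroup I F →* GL (I ⊕ I) F where
  toFun g := ⟨dbl g, dbl g⁻¹, by rw [← dbl_mul, mul_inv_cancel, dbl_one], by rw [← dbl_mul, inv_mul_cancel, dbl_one]⟩
  map_one' := Units.ext dbl_one
  map_mul' g h := Units.ext (dbl_mul g h)

theorem coe_phm (g : Matrix.SpecialLinearGroup I F) : (phm I F g : Matrix (I ⊕ I) (I ⊕ I) F) = dbl g := rfl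

theorem mon_phm {m : Matrix.SpecialLinearGroup I F} {π : Perm I} {e : I → F} (hm : Mon m π e) (he : Sgn e) :
    MonG (phm I F m) (Equiv.sumCongr π π) (e ∘ idx) := by
  intro a b
  rw [coe_phm]
  unfold dbl
  rcases a with a | a <;> rcases b with b | b
  · rw [fromBlocks_apply₁₁, hm.1]
    simp
  · rw [fromBlocks_apply₁₂]; simp
  · rw [fromBlocks_apply₂₁]; simp
  · rw [fromBlocks_apply₂₂, transpose_apply, hm.inv.1]
    simp only [Equiv.sumCongr_apply, Sum.map_inr, Function.comp_apply, idx_inr, Sum.inr.injEq]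
    by_cases h : a = π b
    · subst h
      have e1 : π⁻¹ (π b) = b := by simp
      rw [e1, if_pos rfl, if_pos rfl]
      rcases he b with h1 | h1
      · rw [h1, inv_one]
      · rw [h1, inv_neg, inv_one]
    · rw [if_neg h, if_neg]
      rintro rfl
      exact h (by simp)

/-- the model element `s` -/
def sm (F : Type*) [Field F] (p q : I) : GL (I ⊕ I) F := pm F (flp p * flp q)

theorem sm_symm (p q : I) : sm F p q = sm F q p := by
  unfold sm; rw [flp_comm]

theorem sm_self (p : I) : sm F p p = 1 := by
  unfold sm; rw [flp_mul_self, map_one]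

theorem sm_mul (p q r : I) : sm F p q * sm F q r = sm F p r := by
  unfold sm
  rw [← map_mul]
  congr 1
  calc flp p * flp q * (flp q * flp r) = flp p * (flp q * flp q) * flp r := by group
    _ = _ := by rw [flp_mul_self, mul_one]

theorem sm_conj {m : Matrix.SpecialLinearGroup I F} {π : Perm I} {e : I → F} (hm : Mon m π e) (he : Sgn e) (p q : I) :
    MulAut.conj (phm I F m) (sm F p q) = sm F (π p) (π q) := by
  have h := (mon_phm hm he).pm_comm (f := flp p * flp q) (fun b => by
    simp only [Function.comp_apply, Perm.mul_apply, flp_apply, idx_fl])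
  rw [MulAut.conj_apply, mul_inv_eq_iff_eq_mul]
  unfold sm
  rw [h]
  congr 2
  rw [← flp_conj, ← flp_conj]
  group

/-- root elements -/
def ymat (a b : I ⊕ I) (t : F) : Matrix (I ⊕ I) (I ⊕ I) F := 1 + (single b (ng a) t - single a (ng b) t)

theorem dbl_X {i j : I} (hij : i ≠ j) (t : F) : dbl (X i j t) = ymat (.inr j) (.inl i) t := by
  unfold dbl ymat
  rw [X_inv, coe_X hij, coe_X hij, ng_inl, ng_inr]
  ext a b
  rcases a with a | a <;> rcases b with b | b
  · rw [fromBlocks_apply₁₁]
    simp [Matrix.one_apply, single_apply]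
  · rw [fromBlocks_apply₁₂]; simp [single_apply]
  · rw [fromBlocks_apply₂₁]; simp [single_apply]
  · rw [fromBlocks_apply₂₂]
    simp [Matrix.one_apply, single_apply]
    by_cases h1 : a = b
    · subst h1
      simp
      by_cases h2 : i = a <;> by_cases h3 : j = a <;> simp [h2, h3]
    · simp [h1, Ne.symm h1]
      by_cases h2 : i = b <;> by_cases h3 : j = a <;> simp [h2, h3]

end Cfsg.Agent.H110.D
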