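import Cfsg.Agent.H110.D.Datum
import Cfsg.Agent.H110.D.Map

/-!
# Type `D`: the short list of relators (helper110, for S2295)
-/

set_option autoImplicit false

namespace Cfsg.Agent.H110.D

open Equiv Matrix
open scoped commutatorElement

variable {I L F : Type*} [Fintype I] [DecidableEq I] [Fintype L] [DecidableEq L] [Field F]

/-- block diagonal matrices -/
def bl (e : Fin 2 ⊕ L ≃ I) (g : Matrix.SpecialLinearGroup (Fin 2) F) (h : Matrix.SpecialLinearGroup L F) :
    Matrix.SpecialLinearGroup I F :=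
  ⟨(fromBlocks (g : Matrix (Fin 2) (Fin 2) F) 0 0 (h : Matrix L L F)).submatrix e.symm e.symm, by
    rw [det_submatrix_equiv_self, det_fromBlocks_zero₂₁, g.2, h.2, one_mul]⟩

theorem coe_bl (e : Fin 2 ⊕ L ≃ I) (g : Matrix.SpecialLinearGroup (Fin 2) F) (h : Matrix.SpecialLinearGroup L F) :
    (bl e g h : Matrix I I F) =
      (fromBlocks (g : Matrix (Fin 2) (Fin 2) F) 0 0 (h : Matrix L L F)).submatrix e.symm e.symm := rfl

theorem bl_mul (e : Fin 2 ⊕ L ≃ I) (g g' : Matrix.SpecialLinearGroup (Fin 2) F) (h h' : Matrix.SpecialLinearGroup L F) :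
    bl e (g * g') (h * h') = bl e g h * bl e g' h' := by
  apply Subtype.ext
  rw [Matrix.SpecialLinearGroup.coe_mul, coe_bl, coe_bl, coe_bl, submatrix_mul_equiv, fromBlocks_multiply,
    Matrix.SpecialLinearGroup.coe_mul, Matrix.SpecialLinearGroup.coe_mul]
  simp

theorem bl_one (e : Fin 2 ⊕ L ≃ I) : bl e (1 : Matrix.SpecialLinearGroup (Fin 2) F) (1 : Matrix.SpecialLinearGroup L F) = 1 := by
  apply Subtype.ext
  rw [coe_bl, Matrix.SpecialLinearGroup.coe_one, Matrix.SpecialLinearGroup.coe_one, fromBlocks_one,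
    submatrix_one_equiv, Matrix.SpecialLinearGroup.coe_one]

/-- first block -/
def blL (F : Type*) [Field F] (e : Fin 2 ⊕ L ≃ I) : Matrix.SpecialLinearGroup (Fin 2) F →* Matrix.SpecialLinearGroup I F where
  toFun g := bl e g 1
  map_one' := bl_one e
  map_mul' g g' := by rw [← bl_mul, one_mul]

/-- second block -/
def blR (F : Type*) [Field F] (e : Fin 2 ⊕ L ≃ I) : Matrix.SpecialLinearGroup L F →* Matrix.SpecialLinearGroup I F where
  toFun h := bl e 1 h
  map_one' := bl_one e
  map_mul' g g' := by rw [← bl_mul, one_mul]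

theorem blL_X (e : Fin 2 ⊕ L ≃ I) {i j : Fin 2} (hij : i ≠ j) (t : F) :
    blL F e (X i j t) = X (e (.inl i)) (e (.inl j)) t := by
  have h' : e (.inl i) ≠ e (.inl j) := fun h => hij (Sum.inl.inj (e.injective h))
  apply Subtype.ext
  change (bl e (X i j t) 1 : Matrix I I F) = _
  rw [coe_bl, coe_X hij, coe_X h', Matrix.SpecialLinearGroup.coe_one]
  ext a b
  obtain ⟨a, rfl⟩ := e.surjective a
  obtain ⟨b, rfl⟩ := e.surjective b
  rw [submatrix_apply, e.symm_apply_apply, e.symm_apply_apply, Matrix.add_apply, one_apply, single_apply]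
  rcases a with a | a <;> rcases b with b | b
  · rw [fromBlocks_apply₁₁, Matrix.add_apply, one_apply, single_apply]
    simp
  · rw [fromBlocks_apply₁₂]
    simp
  · rw [fromBlocks_apply₂₁]
    simp
  · rw [fromBlocks_apply₂₂, one_apply]
    simp

theorem inC_blR (e : Fin 2 ⊕ L ≃ I) (h : Matrix.SpecialLinearGroup L F) : InC (e (.inl 0)) (e (.inl 1)) (blR F e h) := by
  intro a
  obtain ⟨a, rfl⟩ := e.surjective a
  change (bl e 1 h : Matrix I I F) _ _ = _ ∧ (bl e 1 h : Matrix I I F) _ _ = _ ∧ (bl e 1 h : Matrix I I F) _ _ = _ ∧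
    (bl e 1 h : Matrix I I F) _ _ = _
  rw [coe_bl]
  simp only [submatrix_apply, e.symm_apply_apply, Matrix.SpecialLinearGroup.coe_one, one_apply, e.injective.eq_iff]
  rcases a with a | a
  · simp only [fromBlocks_apply₁₁, one_apply, Sum.inl.injEq, and_self]
  · simp

theorem exists_blR (e : Fin 2 ⊕ L ≃ I) {g : Matrix.SpecialLinearGroup I F} (hg : InC (e (.inl 0)) (e (.inl 1)) g) :
    ∃ h, g = blR F e h := by
  have key : ∀ i : Fin 2, (∀ a, (g : Matrix I I F) a (e (.inl i)) = (1 : Matrix I I F) a (e (.inl i))) ∧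
      ∀ a, (g : Matrix I I F) (e (.inl i)) a = (1 : Matrix I I F) (e (.inl i)) a := by
    intro i
    fin_cases i
    · exact ⟨fun a => (hg a).1, fun a => (hg a).2.2.1⟩
    · exact ⟨fun a => (hg a).2.1, fun a => (hg a).2.2.2⟩
  have e1 : (g : Matrix I I F) = (fromBlocks (1 : Matrix (Fin 2) (Fin 2) F) 0 0
      ((g : Matrix I I F).submatrix (fun x => e (.inr x)) (fun x => e (.inr x)))).submatrix e.symm e.symm := by
    ext a b
    obtain ⟨a, rfl⟩ := e.surjective a
    obtain ⟨b, rfl⟩ := e.surjective b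
    rw [submatrix_apply, e.symm_apply_apply, e.symm_apply_apply]
    rcases a with a | a
    · rw [(key a).2, one_apply]
      simp only [e.injective.eq_iff]
      rcases b with b | b
      · rw [fromBlocks_apply₁₁, one_apply]; simp
      · rw [fromBlocks_apply₁₂]; simp
    · rcases b with b | b
      · rw [(key b).1, one_apply, fromBlocks_apply₂₁]
        simp
      · rw [fromBlocks_apply₂₂]; rfl
  have hdet : ((g : Matrix I I F).submatrix (fun x => e (.inr x)) (fun x => e (.inr x))).det = 1 := by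
    have := g.2
    rw [e1, det_submatrix_equiv_self, det_fromBlocks_zero₂₁, det_one, one_mul] at this
    exact this
  exact ⟨⟨_, hdet⟩, Subtype.ext e1⟩

/-- transposed inverse -/
def tinv (K F : Type*) [Fintype K] [DecidableEq K] [Field F] :
    Matrix.SpecialLinearGroup K F →* Matrix.SpecialLinearGroup K F where
  toFun g := (g⁻¹).transpose
  map_one' := by
    apply Subtype.ext
    rw [Matrix.SpecialLinearGroup.coe_transpose, inv_one, Matrix.SpecialLinearGroup.coe_one, transpose_one]
  map_mul' g h := by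
    apply Subtype.ext
    rw [Matrix.SpecialLinearGroup.coe_mul, Matrix.SpecialLinearGroup.coe_transpose,
      Matrix.SpecialLinearGroup.coe_transpose, Matrix.SpecialLinearGroup.coe_transpose, _root_.mul_inv_rev,
      Matrix.SpecialLinearGroup.coe_mul, transpose_mul]

theorem tinv_X {K : Type*} [Fintype K] [DecidableEq K] {i j : K} (hij : i ≠ j) (t : F) :
    tinv K F (X i j t) = X j i (-t) := by
  apply Subtype.ext
  change ((X i j t)⁻¹.transpose : Matrix K K F) = _
  rw [Matrix.SpecialLinearGroup.coe_transpose, X_inv, coe_X hij, coe_X hij.symm, transpose_add, transpose_one,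
    transpose_single]

section

variable {J : Type*} [Group J]

/-- `s` on the first block -/
theorem Sys1.sB_all {φ : Matrix.SpecialLinearGroup I F →* J} {s : J} {o l c : I} (A : Sys1 φ s o l c)
    (e : Fin 2 ⊕ L ≃ I) (h0 : e (.inl 0) = o) (h1 : e (.inl 1) = l) (b : Matrix.SpecialLinearGroup (Fin 2) F) :
    MulAut.conj s (φ (blL F e b)) = φ (blL F e (tinv (Fin 2) F b)) := by
  have h2 : b ∈ Subgroup.closure (Cfsg.Agent.LieClassical.SLGen.transvections (Fin 2) F) := by
    rw [Cfsg.Agent.LieClassical.SLGen.closure_transvections]; trivial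
  induction h2 using Subgroup.closure_induction with
  | mem x hx =>
    obtain ⟨i, j, hij, t, rfl⟩ := hx
    rw [← X_of hij, tinv_X hij, blL_X e hij, blL_X e hij.symm]
    fin_cases i <;> fin_cases j
    · exact absurd rfl hij
    · change MulAut.conj s (φ (X (e (.inl 0)) (e (.inl 1)) t)) = φ (X (e (.inl 1)) (e (.inl 0)) (-t))
      rw [h0, h1, A.sB]
    · change MulAut.conj s (φ (X (e (.inl 1)) (e (.inl 0)) t)) = φ (X (e (.inl 0)) (e (.inl 1)) (-t))
      rw [h0, h1, A.sB']
    · exact absurd rfl hij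
  | one => simp
  | mul x y _ _ hx hy => rw [map_mul, map_mul, map_mul, hx, hy, map_mul, map_mul, map_mul]
  | inv x _ hx => rw [map_inv, map_inv, map_inv, hx, map_inv, map_inv, map_inv]

end

end Cfsg.Agent.H110.D
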