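import Cfsg.Agent.H110.D.Rel

/-!
# Type `D`: the short list of relators, equivalence with the hypotheses (helper110, for S2295)
-/

set_option autoImplicit false

namespace Cfsg.Agent.H110.D

open Equiv Matrix
open scoped commutatorElement

variable {I L F : Type*} [Fintype I] [DecidableEq I] [Fintype L] [DecidableEq L] [Field F] {J J' : Type*} [Group J]
  [Group J']

/-- a relator -/
def relB (P : Pre I F J) (e : Fin 2 ⊕ L ≃ I) (b : Matrix.SpecialLinearGroup (Fin 2) F) : J :=
  P.s * P.φ (blL F e b) * P.s⁻¹ * (P.φ (blL F e (tinv _ F b)))⁻¹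

/-- a relator -/
def relC (P : Pre I F J) (e : Fin 2 ⊕ L ≃ I) (g : Matrix.SpecialLinearGroup L F) : J := ⁅P.s, P.φ (blR F e g)⁆

/-- a relator -/
def rel3 (P : Pre I F J) : J := P.s * MulAut.conj (P.φ (zz F P.o P.l P.c)) P.s *
  MulAut.conj (P.φ (zz F P.o P.l P.c * zz F P.o P.l P.c)) P.s

/-- a relator -/
noncomputable def relII (P : Pre I F J) : J := ⁅P.Y (.inl P.o) (.inl P.l) 1, P.Y (.inl P.o) (.inr P.l) 1⁆

/-- a relator -/
noncomputable def relIII (P : Pre I F J) (d : I) : J := ⁅P.Y (.inl P.o) (.inr P.l) 1, P.Y (.inl P.c) (.inl d) 1⁆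

open Classical in
/-- the relators -/
noncomputable def rels (P : Pre I F J) (e : Fin 2 ⊕ L ≃ I) (b1 b2 : Matrix.SpecialLinearGroup (Fin 2) F)
    (g1 g2 : Matrix.SpecialLinearGroup L F) (d : I) : List J :=
  [relB P e b1, relB P e b2, relC P e g1, relC P e g2] ++
    if (2 : F) ≠ 0 then [P.s * P.s, rel3 P] else
      [rel3 P * (P.s * P.s)⁻¹, relII P] ++ if Fintype.card I = 4 then [relIII P d] else []

theorem length_rels (P : Pre I F J) (e : Fin 2 ⊕ L ≃ I) (b1 b2 : Matrix.SpecialLinearGroup (Fin 2) F)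
    (g1 g2 : Matrix.SpecialLinearGroup L F) (d : I) : (rels P e b1 b2 g1 g2 d).length ≤ 7 := by
  unfold rels
  split_ifs <;> simp

theorem length_rels' (P : Pre I F J) (e : Fin 2 ⊕ L ≃ I) (b1 b2 : Matrix.SpecialLinearGroup (Fin 2) F)
    (g1 g2 : Matrix.SpecialLinearGroup L F) (d : I) (h : Fintype.card I ≠ 4) :
    (rels P e b1 b2 g1 g2 d).length ≤ 6 := by
  unfold rels
  split_ifs <;> simp

theorem map_comm' (f : J →* J') (x y : J) : f ⁅x, y⁆ = ⁅f x, f y⁆ := map_commutatorElement f x y

theorem map_rels (P : Pre I F J) (f : J →* J') (e : Fin 2 ⊕ L ≃ I) (b1 b2 : Matrix.SpecialLinearGroup (Fin 2) F)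
    (g1 g2 : Matrix.SpecialLinearGroup L F) (d : I) :
    rels (P.map f) e b1 b2 g1 g2 d = (rels P e b1 b2 g1 g2 d).map f := by
  have h1 : ∀ b, relB (P.map f) e b = f (relB P e b) := by
    intro b
    unfold relB
    rw [map_mul, map_mul, map_mul, map_inv, map_inv]
    rfl
  have h2 : ∀ g, relC (P.map f) e g = f (relC P e g) := by
    intro g
    unfold relC
    rw [map_comm']
    rfl
  have h3 : rel3 (P.map f) = f (rel3 P) := by
    unfold rel3
    rw [map_mul f, map_mul f, map_conj, map_conj]
    rfl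
  have h4 : relII (P.map f) = f (relII P) := by
    unfold relII
    rw [map_comm', Pre.map_Y, Pre.map_Y]
    rfl
  have h5 : relIII (P.map f) d = f (relIII P d) := by
    unfold relIII
    rw [map_comm', Pre.map_Y, Pre.map_Y]
    rfl
  have h6 : (P.map f).s = f P.s := rfl
  unfold rels
  split_ifs <;> simp only [List.map_append, List.map_cons, List.map_nil, h1, h2, h3, h4, h5, h6, map_mul, map_inv]

/-- in the group the relators hold -/
theorem rels_eq_one {P : Pre I F J} (A : P.S2) (e : Fin 2 ⊕ L ≃ I) (h0 : e (.inl 0) = P.o) (h1 : e (.inl 1) = P.l)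
    (b1 b2 : Matrix.SpecialLinearGroup (Fin 2) F)
    (g1 g2 : Matrix.SpecialLinearGroup L F) (d : I) (d1 : d ≠ P.o) (d2 : d ≠ P.l) (d3 : d ≠ P.c) :
    ∀ r ∈ rels P e b1 b2 g1 g2 d, r = 1 := by
  have k1 : ∀ b, relB P e b = 1 := by
    intro b
    have := Sys1.sB_all A.s1 e h0 h1 b
    rw [MulAut.conj_apply] at this
    unfold relB
    rw [this, mul_inv_cancel]
  have k2 : ∀ g, relC P e g = 1 := by
    intro g
    have hin := inC_blR e g
    rw [h0, h1] at hin
    exact commutatorElement_eq_one_iff_commute.2 (A.s1.sC _ hin)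
  have k3 : rel3 P = 1 := A.s1.s3
  have k4 : relII P = 1 := commutatorElement_eq_one_iff_commute.2
    (A.comm4 (a := .inl P.o) (b := .inl P.l) A.s1.hol 1 1)
  have k5 : relIII P d = 1 := commutatorElement_eq_one_iff_commute.2
    (A.comm3 (a := .inl P.o) (b := .inr P.l) (c := .inl P.c) (d := .inl d) A.s1.hol A.s1.hoc d1.symm A.s1.hlc d2.symm
      d3.symm 1 1)
  have k6 : P.s * P.s = 1 := A.s1.sq
  intro r hr
  unfold rels at hr
  split_ifs at hr <;>
    simp only [List.mem_append, List.mem_cons, List.not_mem_nil, or_false, k1, k2, k3, k4, k5, k6, inv_one,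
      mul_one] at hr <;> tauto

/-- the relators imply the hypotheses -/
theorem s2_of_rels {P : Pre I F J} (e : Fin 2 ⊕ L ≃ I) (h0 : e (.inl 0) = P.o) (h1 : e (.inl 1) = P.l)
    (hoc : P.o ≠ P.c) (hlc : P.l ≠ P.c) (hI : 4 ≤ Fintype.card I)
    (hsq : (2 : F) = 0 → ∀ x : F, ∃ y, y * y = x)
    {b1 b2 : Matrix.SpecialLinearGroup (Fin 2) F} (hb : Subgroup.closure {b1, b2} = ⊤)
    {g1 g2 : Matrix.SpecialLinearGroup L F} (hg : Subgroup.closure {g1, g2} = ⊤)
    {d : I} (d1 : d ≠ P.o) (d2 : d ≠ P.l) (d3 : d ≠ P.c)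
    (hr : ∀ r ∈ rels P e b1 b2 g1 g2 d, r = 1) : P.S2 := by
  have hol : P.o ≠ P.l := by
    rw [← h0, ← h1]
    intro h
    have := e.injective h
    simp at this
  have k1 : relB P e b1 = 1 := hr _ (by unfold rels; simp)
  have k2 : relB P e b2 = 1 := hr _ (by unfold rels; simp)
  have k3 : relC P e g1 = 1 := hr _ (by unfold rels; simp)
  have k4 : relC P e g2 = 1 := hr _ (by unfold rels; simp)
  -- all of the first block
  have hB : ∀ b, MulAut.conj P.s (P.φ (blL F e b)) = P.φ (blL F e (tinv _ F b)) := by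
    have e1 : (MulAut.conj P.s).toMonoidHom.comp (P.φ.comp (blL F e)) = P.φ.comp ((blL F e).comp (tinv _ F)) := by
      refine MonoidHom.eq_of_eqOn_dense hb ?_
      intro b hb
      have : relB P e b = 1 := by
        rcases hb with rfl | hb
        · exact k1
        · rw [Set.mem_singleton_iff] at hb
          rw [hb]; exact k2
      exact mul_inv_eq_one.1 this
    intro b
    exact DFunLike.congr_fun e1 b
  have hsB : ∀ t, MulAut.conj P.s (P.φ (X P.o P.l t)) = P.φ (X P.l P.o (-t)) := by
    intro t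
    have := hB (X 0 1 t)
    rwa [tinv_X (by simp), blL_X e (by simp), blL_X e (by simp), h0, h1] at this
  have hsB' : ∀ t, MulAut.conj P.s (P.φ (X P.l P.o t)) = P.φ (X P.o P.l (-t)) := by
    intro t
    have := hB (X 1 0 t)
    rwa [tinv_X (by simp), blL_X e (by simp), blL_X e (by simp), h0, h1] at this
  -- the second block
  have hC : ∀ g, InC P.o P.l g → Commute P.s (P.φ g) := by
    intro g hg'
    rw [← h0, ← h1] at hg'
    obtain ⟨h, rfl⟩ := exists_blR e hg'
    have hh : h ∈ Subgroup.closure {g1, g2} := by rw [hg]; trivial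
    induction hh using Subgroup.closure_induction with
    | mem x hx =>
      rcases hx with rfl | hx
      · exact commutatorElement_eq_one_iff_commute.1 k3
      · rw [Set.mem_singleton_iff] at hx
        rw [hx]
        exact commutatorElement_eq_one_iff_commute.1 k4
    | one => rw [map_one, map_one]; exact Commute.one_right _
    | mul x y _ _ hx hy =>
      rw [map_mul, map_mul]
      exact (hx (inC_blR e x)).mul_right (hy (inC_blR e y))
    | inv x _ hx =>
      rw [map_inv, map_inv]
      exact (hx (inC_blR e x)).inv_right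
  -- squares
  have hsqr : P.s * P.s = 1 ∧ rel3 P = 1 := by
    by_cases h2 : (2 : F) = 0
    swap
    · exact ⟨hr _ (by unfold rels; rw [if_pos h2]; simp), hr _ (by unfold rels; rw [if_pos h2]; simp)⟩
    have k5 : rel3 P * (P.s * P.s)⁻¹ = 1 := hr _ (by unfold rels; rw [if_neg (by simpa using h2)]; simp)
    have k6 : rel3 P = P.s * P.s := mul_inv_eq_one.1 k5
    suffices P.s * P.s = 1 by
      exact ⟨this, by rw [k6, this]⟩
    have hneg : ∀ x : F, -x = x := fun x => by
      rw [neg_eq_iff_add_eq_zero, ← two_mul, h2, zero_mul]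
    have hz3 := zz3 (F := F) hol hoc hlc
    have hW := zz_W (F := F) hol hoc hlc
    have hWinv : (Wu P.o P.l 1 : Matrix.SpecialLinearGroup I F)⁻¹ = Wu P.o P.l 1 := by
      rw [Wu_inv, hneg]
    have hcW : Commute P.s (P.φ (Wu P.o P.l 1)) := by
      have e1 : MulAut.conj P.s (P.φ (Wu P.o P.l 1)) = P.φ (Wu P.l P.o 1) := by
        unfold Wu
        rw [map_mul, map_mul, map_mul, map_mul, hsB, hsB', map_mul, map_mul, hneg, hneg, hneg]
      have e2 : (Wu P.l P.o 1 : Matrix.SpecialLinearGroup I F) = Wu P.o P.l 1 := by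
        refine (mon_Wu hol.symm one_ne_zero).ext_eq ((mon_Wu hol one_ne_zero).congr (swap_comm _ _) fun a => ?_)
        by_cases h : a = P.o
        · rw [if_pos h, if_neg (by rw [h]; exact hol), if_pos h, inv_one, hneg]
        · by_cases h' : a = P.l
          · rw [if_neg h, if_pos h', if_pos h', inv_one, hneg]
          · rw [if_neg h, if_neg h', if_neg h', if_neg h]
      rw [e2, MulAut.conj_apply, mul_inv_eq_iff_eq_mul] at e1
      exact e1
    set z := zz F P.o P.l P.c with hz
    set W := Wu (F := F) P.o P.l 1 with hWdef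
    set a := P.s with ha
    set b := MulAut.conj (P.φ z) a with hbdef
    set c' := MulAut.conj (P.φ (z * z)) a with hcdef
    have r1 : b * c' = a := by
      have : a * b * c' = a * a := k6
      rw [mul_assoc] at this
      exact mul_left_cancel this
    have c1 : MulAut.conj (P.φ W) a = a := by
      rw [MulAut.conj_apply, ← hcW.eq, mul_inv_cancel_right]
    have c2 : MulAut.conj (P.φ W) c' = b := by
      rw [hcdef, ← MulAut.mul_apply, ← map_mul, ← map_mul, hW, hWinv, map_mul, map_mul, MulAut.mul_apply, c1]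
    have c3 : MulAut.conj (P.φ W) b = c' := by
      rw [← c2, ← MulAut.mul_apply, ← map_mul, ← map_mul]
      have : W * W = 1 := by
        conv_lhs => rw [← hWinv]
        rw [hWinv]
        conv_lhs => arg 1; rw [← hWinv]
        exact inv_mul_cancel _
      rw [this, map_one, map_one, MulAut.one_apply]
    have r2 : c' * b = a := by
      have := congrArg (MulAut.conj (P.φ W)) r1
      rwa [map_mul, c1, c2, c3] at this
    have d1' : MulAut.conj (P.φ z) c' = a := by
      rw [hcdef, ← MulAut.mul_apply, ← map_mul, ← map_mul, ← mul_assoc, hz3, map_one, map_one, MulAut.one_apply]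
    have d2' : MulAut.conj (P.φ z) b = c' := by
      rw [hbdef, ← MulAut.mul_apply, ← map_mul, ← map_mul]
    have r3 : c' * a = b := by
      have := congrArg (MulAut.conj (P.φ z)) r1
      rwa [map_mul, d1', d2'] at this
    have r4 : c' * c' = 1 := by
      have : c' * (c' * a) = a := by rw [r3, r2]
      rw [← mul_assoc] at this
      exact mul_eq_right.1 this
    have := congrArg (MulAut.conj (P.φ z)) r4
    rwa [map_mul, d1', map_one] at this
  have hs1 : P.S1 := { hol := hol, hoc := hoc, hlc := hlc, hI := hI, sq := hsqr.1, sC := hC, sB := hsB, s3 := hsqr.2 }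
  refine ⟨hs1, hsq, fun h2 => ?_, fun h2 h4 => ⟨d, d1, d2, d3, ?_⟩⟩
  · exact commutatorElement_eq_one_iff_commute.1 (hr (relII P) (by unfold rels; rw [if_neg (by simpa using h2)]; simp))
  · exact commutatorElement_eq_one_iff_commute.1 (hr (relIII P d) (by
      unfold rels; rw [if_neg (by simpa using h2), if_pos h4]; simp))

end Cfsg.Agent.H110.D
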