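import Cfsg.Agent.H110.D.Tor2
import Cfsg.Agent.H111.Inj

/-!
# The root datum of type `D` (helper110, for S2295)
-/

set_option autoImplicit false

namespace Cfsg.Agent.H110.D

open Equiv Matrix
open Cfsg.Agent.ChevalleyStructure.SteinbergBruhat

/-- signed indices -/
abbrev Sg (m : ℕ) : Type := Fin (m + 2) ⊕ Fin (m + 2)

variable {m : ℕ}

/-- weights of signed indices -/
def wt (a : Sg m) : ℤ := a.elim (fun i => (m : ℤ) + 1 - i.val) fun i => -((m : ℤ) + 1 - i.val)

theorem wt_inl (i : Fin (m + 2)) : wt (.inl i : Sg m) = (m : ℤ) + 1 - i.val := rfl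
theorem wt_inr (i : Fin (m + 2)) : wt (.inr i : Sg m) = -((m : ℤ) + 1 - i.val) := rfl

theorem wt_ng (a : Sg m) : wt (ng a) = - wt a := by
  rcases a with a | a
  · rfl
  · rw [ng_inr, wt_inl, wt_inr, neg_neg]

theorem wt_add_ne {a b : Sg m} (h : idx a ≠ idx b) : wt a + wt b ≠ 0 := by
  intro e
  apply h
  apply Fin.ext
  rcases a with a | a <;> rcases b with b | b <;> simp only [wt_inl, wt_inr] at e <;>
    simp only [idx_inl, idx_inr] <;> have := a.isLt <;> have := b.isLt <;> omega

/-- The roots. -/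
def Root (m : ℕ) : Type := {r : Sym2 (Sg m) // ¬ (r.map idx).IsDiag}

instance finite_root (m : ℕ) : Finite (Root m) := by unfold Root; infer_instance

theorem isRoot_iff {a b : Sg m} : ¬ ((s(a, b) : Sym2 (Sg m)).map idx).IsDiag ↔ idx a ≠ idx b := by
  rw [Sym2.map_mk, Sym2.mk_isDiag_iff]

/-- The root `{a, b}`. -/
def mkR (a b : Sg m) (h : idx a ≠ idx b) : Root m := ⟨s(a, b), isRoot_iff.2 h⟩

theorem Root.ind {P : Root m → Prop} (h : ∀ a b h, P (mkR a b h)) (r : Root m) : P r := by
  obtain ⟨r, hr⟩ := r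
  induction r using Sym2.ind with
  | _ a b => exact h a b (isRoot_iff.1 hr)

theorem mkR_eq {a b c d : Sg m} {h : idx a ≠ idx b} {h' : idx c ≠ idx d} :
    mkR a b h = mkR c d h' ↔ (a = c ∧ b = d) ∨ (a = d ∧ b = c) :=
  Subtype.ext_iff.trans Sym2.eq_iff

/-- height of a root -/
def Root.ht (r : Root m) : ℤ := Sym2.lift ⟨fun a b => wt a + wt b, fun a b => add_comm _ _⟩ r.1

@[simp] theorem ht_mkR (a b : Sg m) (h : idx a ≠ idx b) : (mkR a b h).ht = wt a + wt b := rfl

/-- image of a root -/
def Root.im (f : Sg m → Sg m) (hf : ∀ a b, idx a ≠ idx b → idx (f a) ≠ idx (f b)) (r : Root m) :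
    Root m :=
  ⟨r.1.map f, by
    revert r
    refine Root.ind fun a b h => ?_
    change ¬ (((s(a, b) : Sym2 (Sg m)).map f).map idx).IsDiag
    rw [Sym2.map_mk, isRoot_iff]
    exact hf a b h⟩

theorem im_mkR (f : Sg m → Sg m) (hf : ∀ a b, idx a ≠ idx b → idx (f a) ≠ idx (f b)) (a b : Sg m)
    (h : idx a ≠ idx b) : (mkR a b h).im f hf = mkR (f a) (f b) (hf a b h) := rfl

/-- The index set of simple roots -/
abbrev Sim (m : ℕ) : Type := Fin (m + 1) ⊕ Unit

/-- first member of a simple root -/
def sa : Sim m → Sg m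
  | .inl i => .inl i.castSucc
  | .inr _ => .inl (Fin.last m).castSucc

/-- second member of a simple root -/
def sb : Sim m → Sg m
  | .inl i => .inr i.succ
  | .inr _ => .inl (Fin.last m).succ

theorem cs_ne (i : Fin (m + 1)) : i.castSucc ≠ i.succ := by
  intro h
  have := congrArg Fin.val h
  simp at this

theorem sab (i : Sim m) : idx (sa i) ≠ idx (sb i) := by
  rcases i with i | i <;> exact cs_ne _

theorem wt_sab (i : Sim m) : wt (sa i) + wt (sb i) = 1 := by
  rcases i with i | i
  · change wt (.inl i.castSucc : Sg m) + wt (.inr i.succ : Sg m) = 1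
    rw [wt_inl, wt_inr, Fin.val_castSucc, Fin.val_succ]
    push_cast; ring
  · change wt (.inl (Fin.last m).castSucc : Sg m) + wt (.inl (Fin.last m).succ : Sg m) = 1
    rw [wt_inl, wt_inl, Fin.val_castSucc, Fin.val_succ, Fin.val_last]
    push_cast; ring

theorem wt_rho {a b : Sg m} (hab : idx a ≠ idx b) (h : wt a + wt b = 1) (x : Sg m) :
    wt (rho a b x) = wt x + ((if x = ng a ∨ x = ng b then 1 else 0) - if x = a ∨ x = b then 1 else 0) := by
  have n1 : a ≠ b := fun e => hab (by rw [e])
  have n2 : a ≠ ng b := fun e => hab (by rw [e, idx_ng])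
  have n3 : ng a ≠ b := fun e => hab (by rw [← e, idx_ng])
  have n4 : ng a ≠ ng b := fun e => hab (by rw [← idx_ng a, e, idx_ng])
  refine rho_cases (a := a) (b := b) (fun x => wt (rho a b x) = wt x +
    ((if x = ng a ∨ x = ng b then 1 else 0) - if x = a ∨ x = b then 1 else 0)) ?_ ?_ ?_ ?_ ?_ x
  · rw [rho_left, wt_ng, if_neg, if_pos (Or.inl rfl)]
    · omega
    · rintro (e | e)
      · exact ng_ne a e.symm
      · exact n2 e
  · rw [rho_left', wt_ng, if_pos (Or.inl rfl), if_neg]
    · omega
    · rintro (e | e)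
      · exact ng_ne a e
      · exact n3 e
  · rw [rho_right hab, wt_ng, if_neg, if_pos (Or.inr rfl)]
    · omega
    · rintro (e | e)
      · exact n3 e.symm
      · exact ng_ne b e.symm
  · rw [rho_right' hab, wt_ng, if_pos (Or.inr rfl), if_neg]
    · omega
    · rintro (e | e)
      · exact n2 e.symm
      · exact ng_ne b e
  · intro x h1 h2
    rw [rho_other h1 h2, if_neg, if_neg]
    · omega
    · rintro (rfl | rfl)
      · exact h1 rfl
      · exact h2 rfl
    · rintro (rfl | rfl)
      · exact h1 (idx_ng _)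
      · exact h2 (idx_ng _)

/-- The negative of a root. -/
def Root.neg (r : Root m) : Root m := r.im ng fun a b h => by rwa [idx_ng, idx_ng]

theorem rho_idx_ne {a b : Sg m} (hab : idx a ≠ idx b) (x y : Sg m) (h : idx x ≠ idx y) :
    idx (rho a b x) ≠ idx (rho a b y) := by
  rw [idx_rho hab, idx_rho hab]
  exact (Equiv.swap _ _).injective.ne h

/-- Simple reflections. -/
def Root.refl (i : Sim m) (r : Root m) : Root m := r.im (rho (sa i) (sb i)) (rho_idx_ne (sab i))

/-- Simple roots. -/
def simR (i : Sim m) : Root m := mkR (sa i) (sb i) (sab i)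

theorem Root.ht_ne (r : Root m) : r.ht ≠ 0 := by
  revert r
  exact Root.ind fun a b h => wt_add_ne h

theorem Root.ht_neg (r : Root m) : r.neg.ht = - r.ht := by
  revert r
  refine Root.ind fun a b h => ?_
  rw [Root.neg, im_mkR, ht_mkR, ht_mkR, wt_ng, wt_ng]
  ring

theorem Root.refl_refl (i : Sim m) (r : Root m) : (r.refl i).refl i = r := by
  revert r
  refine Root.ind fun a b h => ?_
  rw [Root.refl, Root.refl, im_mkR, im_mkR, mkR_eq, rho_rho (sab i), rho_rho (sab i)]
  exact Or.inl ⟨rfl, rfl⟩

theorem Root.refl_neg (i : Sim m) (r : Root m) : r.neg.refl i = (r.refl i).neg := by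
  revert r
  refine Root.ind fun a b h => ?_
  rw [Root.refl, Root.refl, Root.neg, Root.neg, im_mkR, im_mkR, im_mkR, im_mkR, mkR_eq, rho_ng (sab i),
    rho_ng (sab i)]
  exact Or.inl ⟨rfl, rfl⟩

theorem refl_simR (i : Sim m) : (simR i).refl i = (simR i).neg := by
  rw [simR, Root.refl, Root.neg, im_mkR, im_mkR, mkR_eq, rho_left, rho_right (sab i)]
  exact Or.inr ⟨rfl, rfl⟩

theorem ht_simR (i : Sim m) : (simR i).ht = 1 := wt_sab i

theorem Root.refl_pos (i : Sim m) (r : Root m) (hr : 0 < r.ht) (hne : r ≠ simR i) : 0 < (r.refl i).ht := by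
  revert r
  refine Root.ind fun a b h => ?_
  intro hr hne
  have h0 := (( mkR a b h).refl i).ht_ne
  rw [ht_mkR] at hr
  rw [Root.refl, im_mkR, ht_mkR] at h0 ⊢
  rw [simR, Ne, mkR_eq] at hne
  rw [wt_rho (sab i) (wt_sab i), wt_rho (sab i) (wt_sab i)] at h0 ⊢
  have key : ¬ ((a = sa i ∨ a = sb i) ∧ (b = sa i ∨ b = sb i)) := by
    rintro ⟨h1 | h1, h2 | h2⟩
    · exact h (by rw [h1, h2])
    · exact hne (Or.inl ⟨h1, h2⟩)
    · exact hne (Or.inr ⟨h1, h2⟩)
    · exact h (by rw [h1, h2])
  by_cases h1 : a = sa i ∨ a = sb i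
  · rw [if_neg (fun h2 => key ⟨h1, h2⟩ : ¬ (b = sa i ∨ b = sb i))] at h0 ⊢
    rw [if_pos h1] at h0 ⊢
    split_ifs at h0 ⊢ <;> omega
  · rw [if_neg h1] at h0 ⊢
    split_ifs at h0 ⊢ <;> omega

/-- some simple reflection raises the height of a negative root -/
theorem Root.exists_raise (r : Root m) (hr : r.ht < 0) : ∃ i, r.ht < (r.refl i).ht := by
  revert r
  refine Root.ind fun x y h => ?_
  -- the first member has negative weight
  have main : ∀ x y : Sg m, ∀ h : idx x ≠ idx y, wt x < 0 → ∃ i, (mkR x y h).ht < ((mkR x y h).refl i).ht := by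
    intro x y h hx
    rcases x with i | i
    · rw [wt_inl] at hx
      have := i.isLt
      omega
    · rw [wt_inr] at hx
      obtain ⟨i, hi⟩ := i
      simp only at hx
      have hi' : i < m + 1 := by omega
      set j : Fin (m + 1) := ⟨i, hi'⟩ with hj
      have ej : (⟨i, hi⟩ : Fin (m + 2)) = j.castSucc := rfl
      rw [ej] at h
      have hsa : sa (.inl j : Sim m) = .inl j.castSucc := rfl
      have hsb : sb (.inl j : Sim m) = .inr j.succ := rfl
      rw [idx_inr] at h
      by_cases hy : y = .inr j.succ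
      · -- use the next simple root
        subst hy
        by_cases hlast : i + 1 < m + 1
        · set k : Fin (m + 1) := ⟨i + 1, hlast⟩ with hk
          have ek : j.succ = k.castSucc := rfl
          have hsa' : sa (.inl k : Sim m) = .inl k.castSucc := rfl
          have hsb' : sb (.inl k : Sim m) = .inr k.succ := rfl
          refine ⟨.inl k, ?_⟩
          rw [Root.refl, im_mkR, ht_mkR, ht_mkR, wt_rho (sab _) (wt_sab _), wt_rho (sab _) (wt_sab _), hsa', hsb',
            ng_inl, ng_inr, ej, ek]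
          have e1 : j.castSucc ≠ k.castSucc := by
            intro e; have := congrArg Fin.val e; simp [hj, hk] at this
          have e2 : j.castSucc ≠ k.succ := by
            intro e; have := congrArg Fin.val e; simp only [hj, hk, Fin.val_castSucc, Fin.val_succ] at this; omega
          have e3 := cs_ne k
          simp [e1, e2, e3]
        · have him : i = m := by omega
          subst him
          have e1 : j = Fin.last i := rfl
          have hsa' : sa (.inr () : Sim i) = .inl (Fin.last i).castSucc := rfl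
          have hsb' : sb (.inr () : Sim i) = .inl (Fin.last i).succ := rfl
          refine ⟨.inr (), ?_⟩
          rw [Root.refl, im_mkR, ht_mkR, ht_mkR, wt_rho (sab _) (wt_sab _), wt_rho (sab _) (wt_sab _), hsa', hsb',
            ng_inl, ng_inl, ej, e1]
          simp
          omega
      · refine ⟨.inl j, ?_⟩
        rw [Root.refl, im_mkR, ht_mkR, ht_mkR, wt_rho (sab _) (wt_sab _), wt_rho (sab _) (wt_sab _), hsa, hsb,
          ng_inl, ng_inr, ej]
        have e3 := cs_ne j
        have e4 : y ≠ .inl j.castSucc := by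
          rintro rfl
          exact h rfl
        have e5 : ¬ (y = .inl j.castSucc ∨ y = .inr j.succ) := by
          rintro (e | e)
          · exact e4 e
          · exact hy e
        rw [if_neg e5, if_pos (Or.inl rfl), if_neg (show ¬ ((.inr j.castSucc : Sg m) = .inl j.castSucc ∨
          (.inr j.castSucc : Sg m) = .inr j.succ) by simp [e3])]
        split_ifs <;> omega
  intro hr
  rw [ht_mkR] at hr
  by_cases hx : wt x < 0
  · exact main x y h hx
  · have hy : wt y < 0 := by omega
    obtain ⟨i, hi⟩ := main y x h.symm hy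
    refine ⟨i, ?_⟩
    have e : mkR y x h.symm = mkR x y h := mkR_eq.2 (Or.inr ⟨rfl, rfl⟩)
    rwa [e] at hi

end Cfsg.Agent.H110.D
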